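import Cfsg.Agent.H762.Ppd.Nat
import Cfsg.Agent.H274.EPO.NoOmega
import Cfsg.Agent.H89.Cov.Forms

/-!
# The natural case of the unitary row of S3499-VII13 (helper312)

* `form_of_ident` : if `P` is `SU_N(K)` up to an isomorphism of the fields and a change of the basis, `P` is the group of
  the isometries of determinant one of a unitary form;
* `no_unitary` : then `Big A Γ S P` is impossible.
-/

set_option autoImplicit false
set_option linter.unusedSectionVars false
set_option linter.style.haveILetI false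

namespace Cfsg.Agent.H312.EPU

open Cfsg.Agent.LieClassical.HermBasic
open Cfsg.Agent.TitsThree Cfsg.Agent.TitsThree.KSideU Cfsg.Agent.TitsThree.KSideUDesc
open Cfsg.Agent.H915.LD Cfsg.Agent.H925.Nat
open Cfsg.Agent.H762.Ppd
open Cfsg Cfsg.Geo Matrix
open scoped MatrixGroups Matrix

universe u v w

section main

variable {ι : Type} [Fintype ι] [DecidableEq ι] {F : Type u} [Field F] [Finite F] {P : Subgroup (GL ι F)}
  {K : Type} [Field K] [Fintype K] {q N : ℕ}

/-- **The natural case.** -/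
theorem form_of_ident (hK : Fintype.card K = q ^ 2) (τ : K ≃+* F) (θ : (Fin N → F) ≃ₗ[F] (ι → F))
    (hθ : ∀ A : GL ι F, A ∈ P ↔ ∃ g : IU K q N, ∀ v, θ (((mt (IU K q N) g).map (τ : K →+* F)) *ᵥ v) =
      (A : Matrix ι ι F) *ᵥ θ v) :
    ∃ (σ : F ≃+* F) (f : (ι → F) → (ι → F) → F), IsUnitaryForm σ f ∧ FixesForm (matrixSet P) f ∧
      ∀ A : GL ι F, FixesForm {(A : Matrix ι ι F)} f → Matrix.GeneralLinearGroup.det A = 1 → A ∈ P := by
  have := Fintype.ofFinite F
  have hF : Fintype.card F = q ^ 2 := by rw [← hK]; exact Fintype.card_congr τ.symm.toEquiv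
  have hf := H930.hermForm_isUnitaryFormPow hF N
  refine ⟨conjE hF, fun u v => hermForm N F q (θ.symm u) (θ.symm v), ⟨conjE_ne hF, fun a => ?_, fun x y v => ?_,
    fun c x v => ?_, fun v w => ?_, ?_⟩, ?_, ?_⟩
  · rw [conjE_apply, conjE_apply, pow_q_pow_q hF]
  · change hermForm N F q (θ.symm (x + y)) _ = _
    rw [map_add, hf.add_left]
  · change hermForm N F q (θ.symm (c • x)) _ = _
    rw [map_smul, hf.smul_left]
  · rw [conjE_apply]
    exact hf.herm _ _
  · intro v hv
    obtain ⟨⟨x, hx⟩, ⟨y, hy⟩⟩ := hf.nondegenerate (θ.symm v) fun h0 => hv ((LinearEquiv.map_eq_zero_iff θ.symm).1 h0)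
    refine ⟨⟨θ x, ?_⟩, ⟨θ y, ?_⟩⟩
    · dsimp only
      rw [LinearEquiv.symm_apply_apply]
      exact hx
    · dsimp only
      rw [LinearEquiv.symm_apply_apply]
      exact hy
  · rintro _ ⟨A, hA, rfl⟩ u v
    obtain ⟨⟨g, x, rfl⟩, hg⟩ := (hθ A).1 hA
    have hmt : mt (IU K q N) ⟨toLin K q N x, x, rfl⟩ = (x.1 : Matrix (Fin N) (Fin N) K) := by
      apply Matrix.toLin'.injective
      refine LinearMap.ext fun v => ?_
      rw [Matrix.toLin'_apply, Matrix.toLin'_apply, mt_mulVec]
      rfl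
    have key : ∀ w : ι → F, θ.symm ((A : Matrix ι ι F) *ᵥ w) =
        fun i => τ (((x.1 : Matrix (Fin N) (Fin N) K) *ᵥ (fun i => τ.symm (θ.symm w i))) i) := by
      intro w
      have h1 := hg (θ.symm w)
      rw [LinearEquiv.apply_symm_apply] at h1
      rw [← h1, LinearEquiv.symm_apply_apply]
      change ((mt (IU K q N) ⟨toLin K q N x, x, rfl⟩).map (τ : K →+* F)) *ᵥ θ.symm w = _
      rw [hmt]
      funext i
      have h2 := RingHom.map_mulVec (τ : K →+* F) (x.1 : Matrix (Fin N) (Fin N) K)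
        (fun i => τ.symm (θ.symm w i)) i
      refine Eq.trans ?_ h2.symm
      congr 2
      funext j
      exact (τ.apply_symm_apply _).symm
    change hermForm N F q (θ.symm ((A : Matrix ι ι F) *ᵥ u)) (θ.symm ((A : Matrix ι ι F) *ᵥ v)) =
      hermForm N F q (θ.symm u) (θ.symm v)
    have hx : ∀ a b, hermForm N K q ((x.1 : Matrix (Fin N) (Fin N) K) *ᵥ a)
        ((x.1 : Matrix (Fin N) (Fin N) K) *ᵥ b) = hermForm N K q a b := x.2
    rw [key, key, herm_map τ, hx, ← herm_map τ]
    congr 1 <;> funext i <;> exact τ.apply_symm_apply _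
  · intro A hA hdet
    rw [hθ]
    -- the matrix on `F^N`
    let B : Matrix (Fin N) (Fin N) F := LinearMap.toMatrix'
      ((θ.symm : (ι → F) →ₗ[F] (Fin N → F)) ∘ₗ (Matrix.toLin' (A : Matrix ι ι F)) ∘ₗ
        (θ : (Fin N → F) →ₗ[F] (ι → F)))
    have hB : ∀ v, B *ᵥ v = θ.symm ((A : Matrix ι ι F) *ᵥ θ v) := by
      intro v
      rw [← Matrix.toLin'_apply, Matrix.toLin'_toMatrix']
      rfl
    have hBd : B.det = 1 := by
      have h1 : B.det = LinearMap.det ((θ.symm : (ι → F) →ₗ[F] (Fin N → F)) ∘ₗ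
          (Matrix.toLin' (A : Matrix ι ι F)) ∘ₗ (θ : (Fin N → F) →ₗ[F] (ι → F))) :=
        LinearMap.det_toMatrix' _
      have h2 := LinearMap.det_conj (Matrix.toLin' (A : Matrix ι ι F)) θ.symm
      rw [LinearEquiv.symm_symm] at h2
      rw [h1, h2, LinearMap.det_toLin']
      have h3 := congrArg Units.val hdet
      exact h3
    have hBf : ∀ u v, hermForm N F q (B *ᵥ u) (B *ᵥ v) = hermForm N F q u v := by
      intro u v
      have h1 := hA _ (Set.mem_singleton _) (θ u) (θ v)
      simp only [LinearEquiv.symm_apply_apply] at h1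
      rw [hB, hB, h1]
    -- the matrix over `K`
    let C : Matrix (Fin N) (Fin N) K := B.map τ.symm
    have hCB : C.map τ = B := by
      ext i j
      simp [C]
    have hCd : C.det = 1 := by
      have h1 : C.det = τ.symm B.det := by
        have := RingHom.map_det (τ.symm : F →+* K) B
        exact this.symm
      rw [h1, hBd, map_one]
    have hCv : ∀ v : Fin N → K, (fun i => τ ((C *ᵥ v) i)) = B *ᵥ (fun i => τ (v i)) := by
      intro v
      rw [← hCB]
      funext i
      exact RingHom.map_mulVec (τ : K →+* F) C v i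
    let g : SU N K q := ⟨⟨C, hCd⟩, fun u v => by
      change hermForm N K q (C *ᵥ u) (C *ᵥ v) = hermForm N K q u v
      apply τ.injective
      rw [← herm_map τ, ← herm_map τ, hCv, hCv, hBf]⟩
    refine ⟨⟨toLin K q N g, g, rfl⟩, fun v => ?_⟩
    have h1 : mt (IU K q N) ⟨toLin K q N g, g, rfl⟩ = C := by
      apply Matrix.toLin'.injective
      refine LinearMap.ext fun v => ?_
      rw [Matrix.toLin'_apply, Matrix.toLin'_apply, mt_mulVec]
      rfl
    rw [h1]
    have h2 : C.map (τ : K →+* F) = B := hCB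
    rw [h2, hB, LinearEquiv.apply_symm_apply]

end main

section big

open Cfsg.Agent.H419.EP Cfsg.Agent.H284 Cfsg.Agent.H914

variable {Q : Type} [Group Q] [Finite Q] {A : Subgroup Q} {Γ : Subgroup (MulAut Q)} {ι : Type} [Fintype ι]
    [DecidableEq ι] {F : Type} [Field F] [Fintype F] {S P : Subgroup (GL ι F)}

theorem sesq_of_unitary {σ : F ≃+* F} {f : (ι → F) → (ι → F) → F} (h : IsUnitaryForm σ f) : IsSesq σ f := by
  refine ⟨h.add_left, h.smul_left, fun v x y => ?_, fun c v x => ?_⟩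
  · rw [h.herm v (x + y), h.add_left, map_add, ← h.herm, ← h.herm]
  · rw [h.herm v (c • x), h.smul_left, map_mul, ← h.herm]

/-- **The natural module of a unitary group.** -/
theorem no_unitary (b : Big A Γ S P) {σ : F ≃+* F} {f : (ι → F) → (ι → F) → F} (h : IsUnitaryForm σ f)
    (hf : FixesForm (matrixSet P) f)
    (hP : ∀ x : GL ι F, FixesForm {(x : Matrix ι ι F)} f → Matrix.GeneralLinearGroup.det x = 1 → x ∈ P) :
    False := by
  rcases b.kind with ⟨-, -, -, -, nu⟩ | ⟨f', -, -, -, -, -, nu⟩ | ⟨q, hq, σ', f', hf', hS, hSL, -, -, -⟩ |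
    ⟨Qf, hQ, hS, -, nu⟩
  · exact nu ⟨σ, f, h, hf⟩
  · exact nu ⟨σ, f, h, hf⟩
  · obtain rfl : σ = σ' := H89.Cov.aut_unique h.ne_refl h.involutive hf'.ne_refl hf'.involutive
    obtain ⟨c, hc⟩ := sesq_unique b.core.absIrred (sesq_of_unitary hf') hf'.nondegenerate
      (fun s hs => hS s (by
        obtain ⟨x, hx, rfl⟩ := hs
        exact ⟨x, b.le_S hx, rfl⟩)) (sesq_of_unitary h) hf
    apply H274.EPO.ne_S b
    apply le_antisymm b.le_S
    intro x hx
    refine hP x ?_ ?_
    · rintro _ rfl u v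
      rw [hc, hc, hS _ ⟨x, hx, rfl⟩]
    · have := hSL hx
      simpa [Cfsg.Geo.specialLinear] using this
  · exact nu ⟨σ, f, h, hf⟩

end big

end Cfsg.Agent.H312.EPU
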