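import Cfsg.Agent.Nodes.WittAll
import Cfsg.Agent.H650.Ppd.Count

/-!
# S3499 (VII), `PSU_d(q₀)`, `d ≥ 6`: types `B_3`, `B_4`, two nodes outside `J` (helper312)

The bounds of `H762.Ppd.Low` with one more vertex.
-/

set_option autoImplicit false
set_option linter.unusedSectionVars false
set_option linter.style.haveILetI false

namespace Cfsg.Agent.H312.EPU.Low

open CoxeterSystem Cfsg.Agent.ChevalleyStructure.CoxeterGeom Cfsg.Agent.Tits.Roots Cfsg.Agent.Tits.Core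
  Cfsg.Agent.Nodes.Reps Cfsg.Agent.Nodes.BNOf Cfsg.Agent.Nodes.Bruhat Cfsg.Agent.Nodes.TypeC
  Cfsg.Agent.Omega.CR Cfsg.Agent.H905.Md
open Cfsg.Agent.H905.DC (co cf co_wordProd)
open Cfsg.Agent.H650.Ppd (mf dim_ge_list dim_ge_list_two)

/-- vertices for the nodes `0, 1` -/
def l01 : List (List (Fin 3)) :=
  [[], [0], [1], [0, 1], [1, 0], [1, 2], [0, 1, 0], [0, 1, 2], [1, 0, 2], [1, 2, 1], [0, 1, 0, 2], [0, 1, 2, 1],
    [1, 0, 2, 1], [1, 2, 1, 0], [0, 1, 0, 2, 1]]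

/-- vertices for the nodes `0, 2` -/
def l02 : List (List (Fin 3)) :=
  [[], [0], [2], [0, 1], [0, 2], [2, 1], [0, 1, 2], [0, 2, 1], [2, 1, 0], [2, 1, 2], [0, 1, 2, 1], [0, 2, 1, 0],
    [0, 2, 1, 2], [2, 1, 0, 2], [0, 1, 2, 1, 0]]

/-- vertices for the nodes `0, 3` -/
def l03 : List (List (Fin 4)) :=
  [[], [0], [3], [0, 1], [0, 3], [3, 2], [0, 1, 2], [0, 1, 3], [0, 3, 2], [3, 2, 1], [3, 2, 3], [0, 1, 2, 3],
    [0, 1, 3, 2], [0, 3, 2, 1], [0, 3, 2, 3], [3, 2, 1, 0], [3, 2, 1, 3], [0, 1, 2, 3, 2], [0, 1, 3, 2, 1]]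

theorem l01_nodup : (l01.map fun ω => (cf (A 3) 0 ω, cf (A 3) 1 ω)).Nodup := by decide +kernel

theorem l02_nodup : (l02.map fun ω => (cf (A 3) 0 ω, cf (A 3) 2 ω)).Nodup := by decide +kernel

theorem l03_nodup : (l03.map fun ω => (cf (A 4) 0 ω, cf (A 4) 3 ω)).Nodup := by decide +kernel

variable {W Y : Type*} [Group W] [Group Y] {n : ℕ} {cs : CoxeterSystem (CoxeterMatrix.B n) W} {p : ℕ} {T : Subgroup Y}
  {nn : Fin n → Y} {X : (Fin n → ℤ) → Subgroup Y} {k V : Type*} [Field k] [AddCommGroup V] [Module k V]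
variable (R : RGD cs (isCartan n) p T nn X) [Finite Y] [Finite W] [Fact p.Prime] [CharP k p]
  {ρ : Y →* Module.End k V} [FiniteDimensional k V] [Nontrivial V]
  (hirr : ∀ L : Submodule k V, Ivt ρ (GG cs (isCartan n) T X) L → L = ⊥ ∨ L = ⊤)
include R hirr

theorem b3_01 (hn : n = 3) {i j : Fin n} (hi : (i : ℕ) = 0) (hj : (j : ℕ) = 1) (h1 : i ∉ Jx cs (isCartan n) X ρ)
    (h2 : j ∉ Jx cs (isCartan n) X ρ) : 15 * Module.finrank k (D cs (isCartan n) X ρ) ≤ Module.finrank k V := by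
  subst hn
  obtain rfl : i = 0 := Fin.ext hi
  obtain rfl : j = 1 := Fin.ext hj
  have := dim_ge_list_two R hirr h1 h2 (by decide) l01 [] [] l01_nodup (by simp) (by simp)
  simpa [l01] using this

theorem b3_02 (hn : n = 3) {i j : Fin n} (hi : (i : ℕ) = 0) (hj : (j : ℕ) = 2) (h1 : i ∉ Jx cs (isCartan n) X ρ)
    (h2 : j ∉ Jx cs (isCartan n) X ρ) : 15 * Module.finrank k (D cs (isCartan n) X ρ) ≤ Module.finrank k V := by
  subst hn
  obtain rfl : i = 0 := Fin.ext hi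
  obtain rfl : j = 2 := Fin.ext hj
  have := dim_ge_list_two R hirr h1 h2 (by decide) l02 [] [] l02_nodup (by simp) (by simp)
  simpa [l02] using this

theorem b4_03 (hn : n = 4) {i j : Fin n} (hi : (i : ℕ) = 0) (hj : (j : ℕ) = 3) (h1 : i ∉ Jx cs (isCartan n) X ρ)
    (h2 : j ∉ Jx cs (isCartan n) X ρ) : 19 * Module.finrank k (D cs (isCartan n) X ρ) ≤ Module.finrank k V := by
  subst hn
  obtain rfl : i = 0 := Fin.ext hi
  obtain rfl : j = 3 := Fin.ext hj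
  have := dim_ge_list_two R hirr h1 h2 (by decide) l03 [] [] l03_nodup (by simp) (by simp)
  simpa [l03] using this

end Cfsg.Agent.H312.EPU.Low
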