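import Cfsg.Agent.Nodes.WittAll
import Cfsg.Agent.H650.Ppd.Count

/-!
# Type `B_4`, the nodes `0` and `3` outside `J`: 24 vertices (helper312)
-/

set_option autoImplicit false
set_option linter.unusedSectionVars false
set_option linter.style.haveILetI false

namespace Cfsg.Agent.H312.EPU.Low

open CoxeterSystem Cfsg.Agent.ChevalleyStructure.CoxeterGeom Cfsg.Agent.Tits.Roots Cfsg.Agent.Tits.Core
  Cfsg.Agent.Nodes.Reps Cfsg.Agent.Nodes.BNOf Cfsg.Agent.Nodes.Bruhat Cfsg.Agent.Nodes.TypeC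
  Cfsg.Agent.Omega.CR Cfsg.Agent.H905.Md
open Cfsg.Agent.H905.DC (co cf co_wordProd)
open Cfsg.Agent.H650.Ppd (mf dim_ge_list dim_ge_list_two)

/-- vertices for the nodes `0, 3` -/
def l03c : List (List (Fin 4)) :=
  [[], [0], [3], [0, 1], [0, 3], [3, 2], [0, 1, 2], [0, 1, 3], [0, 3, 2], [3, 2, 1], [3, 2, 3], [0, 1, 2, 3],
    [0, 1, 3, 2], [0, 3, 2, 1], [0, 3, 2, 3], [3, 2, 1, 0], [3, 2, 1, 3], [0, 1, 2, 3, 2], [0, 1, 3, 2, 1],
    [0, 1, 3, 2, 3], [0, 3, 2, 1, 0], [0, 3, 2, 1, 3], [3, 2, 1, 0, 3], [3, 2, 1, 3, 2]]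

theorem l03c_nodup : (l03c.map fun ω => (cf (A 4) 0 ω, cf (A 4) 3 ω)).Nodup := by decide +kernel

variable {W Y : Type*} [Group W] [Group Y] {n : ℕ} {cs : CoxeterSystem (CoxeterMatrix.B n) W} {p : ℕ} {T : Subgroup Y}
  {nn : Fin n → Y} {X : (Fin n → ℤ) → Subgroup Y} {k V : Type*} [Field k] [AddCommGroup V] [Module k V]
variable (R : RGD cs (isCartan n) p T nn X) [Finite Y] [Finite W] [Fact p.Prime] [CharP k p]
  {ρ : Y →* Module.End k V} [FiniteDimensional k V] [Nontrivial V]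
  (hirr : ∀ L : Submodule k V, Ivt ρ (GG cs (isCartan n) T X) L → L = ⊥ ∨ L = ⊤)
include R hirr

theorem b4_03c (hn : n = 4) {i j : Fin n} (hi : (i : ℕ) = 0) (hj : (j : ℕ) = 3) (h1 : i ∉ Jx cs (isCartan n) X ρ)
    (h2 : j ∉ Jx cs (isCartan n) X ρ) : 24 * Module.finrank k (D cs (isCartan n) X ρ) ≤ Module.finrank k V := by
  subst hn
  obtain rfl : i = 0 := Fin.ext hi
  obtain rfl : j = 3 := Fin.ext hj
  have := dim_ge_list_two R hirr h1 h2 (by decide) l03c [] [] l03c_nodup (by simp) (by simp)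
  simpa [l03c] using this

end Cfsg.Agent.H312.EPU.Low
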