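import Cfsg.Agent.H762.Ppd.Mid

/-!
# Type `B_3`, the middle node: the bound inside a submodule (helper312)

`mid_bound_sub` : `H762.Ppd.Mid.mid_bound` for a submodule containing the Levi submodules of the vertices.
-/

set_option autoImplicit false
set_option linter.unusedSectionVars false
set_option linter.style.haveILetI false

namespace Cfsg.Agent.H312.EPU

open CoxeterSystem Cfsg.Agent.ChevalleyStructure.CoxeterGeom Cfsg.Agent.Tits.Roots Cfsg.Agent.Tits.Core
  Cfsg.Agent.Nodes.Reps Cfsg.Agent.Nodes.BNOf Cfsg.Agent.Nodes.Bruhat Cfsg.Agent.Nodes.TypeC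
  Cfsg.Agent.Omega.CR Cfsg.Agent.H905.Md Cfsg.Agent.H117.Levi
open Cfsg.Agent.H905.DC (co cf co_wordProd)
open Cfsg.Agent.H650.Ppd (co_eq_of_mem)
open Cfsg.Agent.H762.Ppd.Mid (wl gl hmin hsep hsep' rp_gl)

section lin

variable {k V : Type*} [Field k] [AddCommGroup V] [Module k V] [FiniteDimensional k V]

/-- **orthogonal families**, inside a submodule -/
theorem sum_prk_le_sub {ι : Type*} [Fintype ι] (f : ι → Submodule k V) (Φ : ι → Submodule k (Module.Dual k V))
    (h2 : ∀ i j, i ≠ j → ∀ φ ∈ Φ i, ∀ v ∈ f j, φ v = 0) {U : Submodule k V} (hU : ∀ i, f i ≤ U) :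
    ∑ i, prk (f i) (Φ i) ≤ Module.finrank k U := by
  choose g hg h1 h3 using fun i => exists_compl (f i) (Φ i)
  calc ∑ i, prk (f i) (Φ i) = ∑ i, Module.finrank k (g i) := Finset.sum_congr rfl fun i _ => (h3 i).symm
    _ ≤ Module.finrank k (⨆ i, g i : Submodule k V) :=
      sum_le_of_sep (Φ := Φ) h1 fun i j hij φ hφ v hv => h2 i j hij φ hφ v (hg j hv)
    _ ≤ Module.finrank k U := Submodule.finrank_mono (iSup_le fun i => (hg i).trans (hU i))

end lin

section levi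

variable {I W Y : Type*} [Fintype I] [DecidableEq I] [Group W] [Group Y] {M : CoxeterMatrix I}
  {cs : CoxeterSystem M W} {A : I → I → ℤ} {h : IsCartan M A} {p : ℕ} {T : Subgroup Y} {n : I → Y}
  {X : (I → ℤ) → Subgroup Y} {k V : Type*} [Field k] [AddCommGroup V] [Module k V]
variable (R : RGD cs h p T n X) [Finite Y] [Finite W] [Fact p.Prime] [CharP k p]
  {ρ : Y →* Module.End k V} [FiniteDimensional k V]
  (hirr : ∀ L : Submodule k V, Ivt ρ (GG cs h T X) L → L = ⊥ ∨ L = ⊤)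
include R hirr

/-- **Levi restrictions** inside a submodule -/
theorem dim_ge_levi_sub [Nontrivial V] (J : Set I) {α : Type*} [Fintype α] (w : α → W) (g : α → Y)
    (hg : ∀ a, Rp cs R.nsys (w a) (g a)) (hmin : ∀ a, ∀ i ∈ J, 0 ≤ rep cs h (w a)⁻¹ (sr i))
    (hsep : ∀ a a', a ≠ a' → ∀ x ∈ WJ cs J, (w a)⁻¹ * x * w a' ∉ WJ cs (Jx cs h X ρ)) {U : Submodule k V}
    (hU : ∀ a, Lf cs h T X ρ J (g a) ≤ U) :
    ∑ a, lrk cs h T X ρ J (g a) ≤ Module.finrank k U := by
  refine sum_prk_le_sub _ _ (fun a a' haa φ hφ v hv => ?_) hU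
  by_contra hne
  obtain ⟨x, hx, h1⟩ := mem_of_pairJ R hirr (hg a) (hg a') (hmin a) (hmin a') hφ hv hne
  exact hsep a a' haa x hx h1

end levi

section main

variable {W Y : Type*} [Group W] [Group Y] {cs : CoxeterSystem (CoxeterMatrix.B 3) W} {p : ℕ} {T : Subgroup Y}
  {nn : Fin 3 → Y} {X : (Fin 3 → ℤ) → Subgroup Y} {k V : Type*} [Field k] [AddCommGroup V] [Module k V]
variable (R : RGD cs (isCartan 3) p T nn X) [Finite Y] [Finite W] [Fact p.Prime] [CharP k p]
  {ρ : Y →* Module.End k V} [FiniteDimensional k V] [Nontrivial V]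
  (hirr : ∀ L : Submodule k V, Ivt ρ (GG cs (isCartan 3) T X) L → L = ⊥ ∨ L = ⊤)
  (hD : Module.finrank k (D cs (isCartan 3) X ρ) = 1)

include R hirr hD

theorem mid_bound_sub (h1 : (1 : Fin 3) ∉ Jx cs (isCartan 3) X ρ)
    (hm : 4 ≤ lrk cs (isCartan 3) T X ρ {0} (nn 1 * nn 2 * nn 1)) {U : Submodule k V}
    (hU : ∀ a, Lf cs (isCartan 3) T X ρ {0} (gl nn (wl a)) ≤ U) : 14 ≤ Module.finrank k U := by
  have hg := fun a : Fin 7 => rp_gl R (wl a)
  have key := dim_ge_levi_sub R hirr ({0} : Set (Fin 3)) (α := Fin 7) (fun a => cs.wordProd (wl a))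
    (fun a => gl nn (wl a)) hg hmin (hsep h1) hU
  have e1 : ∀ a : Fin 7, 1 ≤ lrk cs (isCartan 3) T X ρ {0} (gl nn (wl a)) := fun a => one_le_lrk R hirr _ _
  have e2 : ∀ a : Fin 7, a = 1 ∨ a = 2 ∨ a = 3 ∨ a = 4 ∨ a = 5 → 2 ≤ lrk cs (isCartan 3) T X ρ {0} (gl nn (wl a)) := by
    intro a ha
    have hs := hsep' (cs := cs) h1 a ha
    have h2 := lrk_ge R hirr (hg a) (hmin a) (α := Fin 2) (β := Fin 0) ![1, cs.simple 0]
      (by
        have hm' : cs.simple 0 ∈ WJ cs ({0} : Set (Fin 3)) := by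
          unfold WJ
          exact Subgroup.subset_closure ⟨0, rfl, rfl⟩
        intro x; fin_cases x; exacts [one_mem _, hm'])
      (by
        intro x x' hxx h
        fin_cases x <;> fin_cases x'
        · exact hxx rfl
        · apply hs
          simpa [mul_assoc] using h
        · apply hs
          simpa [mul_assoc] using h
        · exact hxx rfl)
      Fin.elim0 (fun b => b.elim0) Fin.elim0 (fun b => b.elim0) (fun b => b.elim0)
    rw [hD] at h2
    simpa using h2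
  have e3 : gl nn (wl 3) = nn 1 * nn 2 * nn 1 := by
    simp [gl, wl, mul_assoc]
  have e4 : 4 ≤ lrk cs (isCartan 3) T X ρ {0} (gl nn (wl 3)) := by rw [e3]; exact hm
  have a0 := e1 0
  have a1 := e2 1 (by simp)
  have a2 := e2 2 (by simp)
  have a4 := e2 4 (by simp)
  have a5 := e2 5 (by simp)
  have a6 := e1 6
  simp only [Fin.sum_univ_succ, Fin.sum_univ_zero, Fin.isValue] at key
  change lrk cs (isCartan 3) T X ρ {0} (gl nn (wl 0)) + (lrk cs (isCartan 3) T X ρ {0} (gl nn (wl 1)) +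
    (lrk cs (isCartan 3) T X ρ {0} (gl nn (wl 2)) + (lrk cs (isCartan 3) T X ρ {0} (gl nn (wl 3)) +
    (lrk cs (isCartan 3) T X ρ {0} (gl nn (wl 4)) + (lrk cs (isCartan 3) T X ρ {0} (gl nn (wl 5)) +
    (lrk cs (isCartan 3) T X ρ {0} (gl nn (wl 6)) + 0)))))) ≤ _ at key
  omega

/-- a submodule stable under a group containing `T`, `X_{±α_0}` and the Weyl elements -/
theorem mid_bound_of (h1 : (1 : Fin 3) ∉ Jx cs (isCartan 3) X ρ)
    (hm : 4 ≤ lrk cs (isCartan 3) T X ρ {0} (nn 1 * nn 2 * nn 1)) {H : Subgroup Y}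
    (hT : T ≤ H) (hX : X (sr 0) ≤ H) (hX' : X (-sr 0) ≤ H) (hn : ∀ i, nn i ∈ H) {U : Submodule k V}
    (hDU : D cs (isCartan 3) X ρ ≤ U) (hHU : Ivt ρ H U) : 14 ≤ Module.finrank k U := by
  refine mid_bound_sub R hirr hD h1 hm fun a => ?_
  have hg : gl nn (wl a) ∈ H := by
    unfold gl
    refine Subgroup.list_prod_mem _ fun x hx => ?_
    obtain ⟨i, -, rfl⟩ := List.mem_map.1 hx
    exact hn i
  unfold Lf
  refine Sp_le ?_ (fun l hl v hv => hHU l (LJ_single_le hT hX hX' hl) v hv)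
  rintro _ ⟨d, hd, rfl⟩
  exact hHU _ hg d (hDU hd)

end main

end Cfsg.Agent.H312.EPU
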