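import Cfsg.Agent.S0815
import Cfsg.Agent.H223.Bnd.Psu
import Cfsg.Agent.H762.Ppd.Arith
import Cfsg.Agent.LieClassical.HermBasic

/-!
# Numerics for the unitary row of S3499-VII13 (helper312)

* `aut_le` : `|Aut PSU_N(q)| ≤ q ^ (N ^ 2)`;
* `deg_bounds` : the bounds for the degree.
-/

set_option autoImplicit false

namespace Cfsg.Agent.H312.EPU

open Cfsg

theorem aut_le {K : Type*} [Field K] [Fintype K] {q N : ℕ} (hK : Fintype.card K = q ^ 2) (hN : 3 ≤ N)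
    (h32 : ¬ (N = 3 ∧ q = 2)) : Nat.card (MulAut (Cfsg.PSU N K q)) ≤ q ^ (N ^ 2) := by
  obtain ⟨p, f, hp, -, hqf, hf⟩ := LieClassical.HermBasic.exists_prime_pow hK
  have : Fact p.Prime := ⟨hp⟩
  have hf1 : 1 ≤ f := by omega
  rw [S0815.result p f hf1 hqf hK N hN h32]
  have h1 := H223.Bnd.H454.FinePsu.card_le hK (n := N) (by omega)
  have h2 : 2 * f ≤ q := by
    rw [hqf]
    exact (H762.Ppd.Ar.two_mul_le_pow hf1).trans (Nat.pow_le_pow_left hp.two_le f)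
  have h3 : q ^ (N ^ 2) = q * q ^ (N ^ 2 - 1) := by
    rw [← pow_succ']
    congr 1
    have : 1 ≤ N ^ 2 := Nat.one_le_pow _ _ (by omega)
    omega
  rw [h3]
  calc Nat.gcd N (q + 1) * (2 * f) * Nat.card (Cfsg.PSU N K q)
      = (2 * f) * (Nat.gcd N (q + 1) * Nat.card (Cfsg.PSU N K q)) := by ring
    _ ≤ q * q ^ (N ^ 2 - 1) := Nat.mul_le_mul h2 h1

theorem deg_bounds {Φ q j n N X A : ℕ} (hΦ : 2 ≤ Φ) (hj : 1 ≤ j) (hjq : Φ ^ j = q ^ 2)
    (ho : Φ ^ (n * (n - 1) / 2) ≤ 8 * X) (hUB : X ≤ A ^ 4) (hA : A ≤ q ^ (N ^ 2)) (hN : 6 ≤ N) :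
    (j = 1 → n ≤ 2 * N) ∧ (2 ≤ j → n < 2 * (j * (N - 1))) := by
  have h1 : Φ ^ (n * (n - 1) / 2) ≤ Φ ^ (2 * j * N ^ 2 + 3) := by
    calc Φ ^ (n * (n - 1) / 2) ≤ 8 * (q ^ (N ^ 2)) ^ 4 :=
          ho.trans (Nat.mul_le_mul_left _ (hUB.trans (Nat.pow_le_pow_left hA 4)))
      _ = 8 * Φ ^ (2 * j * N ^ 2) := by
          have e : 2 * j * N ^ 2 = j * (2 * N ^ 2) := by ring
          have e' : N ^ 2 * 4 = 2 * (2 * N ^ 2) := by ring
          rw [← pow_mul q, e, pow_mul Φ, hjq, ← pow_mul, e']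
      _ ≤ Φ ^ (2 * j * N ^ 2 + 3) := by
          rw [pow_add, mul_comm]
          exact Nat.mul_le_mul_left _ (by
            calc 8 = 2 ^ 3 := by norm_num
              _ ≤ Φ ^ 3 := Nat.pow_le_pow_left hΦ 3)
  have h2 : n * (n - 1) / 2 ≤ 2 * j * N ^ 2 + 3 := (Nat.pow_le_pow_iff_right (by omega)).1 h1
  have h3 : n * (n - 1) / 2 * 2 = n * (n - 1) := Nat.div_mul_cancel (Nat.even_mul_pred_self n).two_dvd
  have h4 : n * (n - 1) ≤ 4 * j * N ^ 2 + 6 := by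
    have : 4 * j * N ^ 2 + 6 = (2 * j * N ^ 2 + 3) * 2 := by ring
    rw [← h3, this]
    exact Nat.mul_le_mul_right _ h2
  constructor
  · rintro rfl
    by_contra hcon
    have h5 : (2 * N + 1) * (2 * N) ≤ n * (n - 1) := Nat.mul_le_mul (by omega) (by omega)
    nlinarith
  · intro hj2
    by_contra hcon
    obtain ⟨t, rfl⟩ := Nat.exists_eq_add_of_le hN
    obtain ⟨i, rfl⟩ := Nat.exists_eq_add_of_le hj2
    have e6 : 6 + t - 1 = t + 5 := by omega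
    rw [e6] at hcon
    have h5 : (2 * ((2 + i) * (t + 5))) * (2 * ((2 + i) * (t + 5)) - 1) ≤ n * (n - 1) :=
      Nat.mul_le_mul (by omega) (by omega)
    set m := 2 * ((2 + i) * (t + 5)) with hm
    have h6 : m * (m - 1) + m = m * m := by
      obtain ⟨s, hs⟩ : ∃ s, m = s + 1 := ⟨m - 1, by
        have : 0 < m := by rw [hm]; positivity
        omega⟩
      rw [hs]
      simp only [Nat.add_sub_cancel]
      ring
    have h7 : m * m ≤ 4 * (2 + i) * (6 + t) ^ 2 + 6 + m := by omega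
    rw [hm] at h7
    have h8 : 0 ≤ t := Nat.zero_le _
    nlinarith [mul_nonneg (Nat.zero_le i) (Nat.zero_le t), mul_nonneg (mul_nonneg (Nat.zero_le i) (Nat.zero_le t)) (Nat.zero_le t), mul_nonneg (mul_nonneg (Nat.zero_le i) (Nat.zero_le i)) (Nat.zero_le t), mul_nonneg (Nat.zero_le t) (Nat.zero_le t), mul_nonneg (mul_nonneg (Nat.zero_le i) (Nat.zero_le i)) (mul_nonneg (Nat.zero_le t) (Nat.zero_le t))]

theorem pow_five' {r : ℕ} (hr : 5 ≤ r) : 4 * r + 2 < 2 ^ r := by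
  induction r, hr using Nat.le_induction with
  | base => norm_num
  | succ r hr ih => rw [pow_succ]; omega

theorem first_one {r n N ε : ℕ} (hr : 3 ≤ r) (hN : N ≤ 2 * r + 1) (hn : n ≤ 2 * N) (hε : 1 ≤ ε)
    (h : 2 * r + 2 * r * (r - 1) * ε ≤ n) : False := by
  obtain ⟨s, rfl⟩ := Nat.exists_eq_add_of_le hr
  have e1 : 3 + s - 1 = 2 + s := by omega
  rw [e1] at h
  have h5 : 2 * (3 + s) * (2 + s) * 1 ≤ 2 * (3 + s) * (2 + s) * ε := Nat.mul_le_mul_left _ hε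
  have h6 : 2 * (3 + s) * 2 ≤ 2 * (3 + s) * (2 + s) * 1 := by
    rw [mul_one]
    exact Nat.mul_le_mul_left _ (by omega)
  omega

end Cfsg.Agent.H312.EPU
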