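import Cfsg.Agent.H312.EPU.Seven
import Cfsg.Agent.H312.EPU.Low
import Cfsg.Agent.H312.EPU.Num
import Cfsg.Agent.H69.Ppd.Psu6Aux
import Cfsg.Agent.H762.Ppd.PsuAux

/-!
# `PSU_N(q)`, `N ≥ 6`, in its own characteristic and degree at most `2 N` (helper312)

**`ident_psu`** : `Core P`, `Soc P ≃ PSU_N(q)`, `N ≥ 6`, degree at least 13 and at most `2 N` for `|F| = q ^ 2`, less
than `2 j (N - 1)` for `|F| ^ j = q ^ 2`, `j ≥ 2`: `P` is `SU_N(K)` in its natural action.
-/

set_option autoImplicit false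
set_option linter.unusedSectionVars false
set_option linter.style.haveILetI false

namespace Cfsg.Agent.H312.EPU

open CoxeterSystem Cfsg.Agent.ChevalleyStructure.CoxeterGeom Cfsg.Agent.Tits.Roots Cfsg.Agent.Tits.Core
  Cfsg.Agent.Nodes.Reps Cfsg.Agent.Nodes.BNOf Cfsg.Agent.Nodes.Bruhat Cfsg.Agent.Nodes.RGDLib
open Cfsg.Agent.Nodes Cfsg.Agent.Nodes.WittRoot Cfsg.Agent.Nodes.WittRGD Cfsg.Agent.Nodes.WittAll Cfsg.Agent.Nodes.WittU
open Cfsg.Agent.Nodes.TypeC (isCartan)
open Cfsg.Agent.LieClassical.HermBasic Cfsg.Agent.LieClassical.HermSiegel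
open Cfsg.Agent.TitsThree.Siegel Cfsg.Agent.TitsThree.SiegelGen Cfsg.Agent.TitsThree.WittFrame Cfsg.Agent.TitsThree.FrameCN
  Cfsg.Agent.TitsThree.WBridge Cfsg.Agent.TitsThree.KSideU Cfsg.Agent.TitsThree.KSideUDesc Cfsg.Agent.TitsThree
open Cfsg.Agent.H915.LD Cfsg.Agent.H911 Cfsg.Agent.H905.Md Cfsg.Agent.H925.Nat Cfsg.Agent.Nodes.RGDLift
open Cfsg.Agent.H156.Ppd (Cov lrep exists_cov)
open Cfsg.Agent.Omega.CR Cfsg.Agent.Omega.FOne.Lift.Sd
open Cfsg.Agent.H948.Ppd Cfsg.Agent.H762.Ppd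
open Cfsg.Agent.H61.SUCross Cfsg.Agent.H48.NatSU
open Cfsg Cfsg.Geo
open scoped MatrixGroups Matrix

universe u v w

section cov

variable {K : Type} [Field K] [Fintype K] {q N n : ℕ} {hK : Fintype.card K = q ^ 2} {hN : 3 ≤ N} {W : WFrame (PU hK N) n}
  {F : Type u} [Field F] [Finite F] {ι : Type} [Fintype ι] [DecidableEq ι] {P : Subgroup (GL ι F)}
  {p : ℕ} [hp : Fact p.Prime] [hFp : CharP F p] [hKp : CharP K p]

/-- `H762.Ppd.exists_covSU'` with the kernel -/
theorem exists_covSU (hC : Core P) (h32 : ¬ (N = 3 ∧ q = 2)) (hn : 0 < n)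
    {hA : AmbT (toFrame W) p (modelSU hK hN W).I} {p0 : (toFrame W).Adm} (hp0 : p0.c ≠ 0)
    (e : Soc P ≃* PSU N K q) :
    ∃ φ₀ : SU N K q →* GL ι F, φ₀.range = P ∧ φ₀.ker ≤ Subgroup.center (SU N K q) ∧
      Cov (CoxeterMatrix.B n).toCoxeterSystem (isCartan n) p (TB (modelSU hK hN W)) (NB hA p0)
        (XB (modelSU hK hN W)) P (MonoidHom.id (modelSU hK hN W).I) (φ₀.comp (modelSU hK hN W).φ) (NB hA p0) := by
  have hperf := perfect_I (hN := hN) (W := W) h32
  have hWf : Finite (CoxeterMatrix.B n).Group := TypeC.finite_W (CoxeterMatrix.B n).toCoxeterSystem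
  have := finite_GL (K := K) (ν := Fin N)
  have R := rgdB hA hp0 (CoxeterMatrix.B n).toCoxeterSystem (M := modelSU hK hN W)
  have hG := genB hA hn hperf (CoxeterMatrix.B n).toCoxeterSystem
  obtain ⟨φ, hφ, hker', -⟩ := psu_cover p hK hN h32 hC.perfect e
  have hker : (MonoidHom.id (modelSU hK hN W).I).ker = ⊥ := by
    rw [MonoidHom.ker_eq_bot_iff]
    exact fun _ _ h => h
  have h1 : (MonoidHom.id (modelSU hK hN W).I).ker ≤ Subgroup.center _ := by rw [hker]; exact bot_le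
  have h2 : (Nat.card (MonoidHom.id (modelSU hK hN W).I).ker).Coprime p := by
    rw [hker, Subgroup.card_bot]; exact Nat.coprime_one_left _
  obtain ⟨n₁, hn₁, R₁, hG₁⟩ := H905.DC.exists_rgd_lift hperf h1 h2 Function.surjective_id R hG
  obtain rfl : n₁ = NB hA p0 := funext hn₁
  refine ⟨φ, hφ, hker', Function.surjective_id, h1, h2, hn₁, R₁, hG₁, ?_⟩
  rw [MonoidHom.range_comp]
  have h3 : (modelSU hK hN W).φ.range = ⊤ := MonoidHom.range_eq_top.2 (ofRange K q N).surjective
  rw [h3, ← MonoidHom.range_eq_map, hφ]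

theorem ker_comp {φ₀ : SU N K q →* GL ι F} (h : φ₀.ker ≤ Subgroup.center (SU N K q)) :
    (φ₀.comp (modelSU hK hN W).φ).ker ≤ Subgroup.center _ := by
  intro x hx
  have h1 : (modelSU hK hN W).φ x ∈ Subgroup.center (SU N K q) := h hx
  have hinj : Function.Injective (modelSU hK hN W).φ := (ofRange K q N).injective
  rw [Subgroup.mem_center_iff] at h1 ⊢
  intro y
  apply hinj
  rw [map_mul, map_mul]
  exact h1 _

end cov

/-- an element of norm one with `c ^ 7 ≠ 1` -/
theorem exists_norm_one {K : Type} [Field K] [Fintype K] {q : ℕ} (hK : Fintype.card K = q ^ 2) :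
    ∃ c : K, c * c ^ q = 1 ∧ c ^ 7 ≠ 1 := by
  have hq := two_le_q hK
  have h7 : ¬ (q + 1) ∣ 7 := by
    intro h
    rcases (Nat.dvd_prime (by norm_num)).1 h with h1 | h1
    · omega
    · obtain rfl : q = 6 := by omega
      obtain ⟨p, k, hp, -, hk, hk0⟩ := exists_prime_pow hK
      have h2 : 2 ∣ p ^ k := by rw [← hk]; norm_num
      have h3 : 3 ∣ p ^ k := by rw [← hk]; norm_num
      have h4 := (Nat.prime_dvd_prime_iff_eq Nat.prime_two hp).1 (Nat.prime_two.dvd_of_dvd_pow h2)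
      have h5 := (Nat.prime_dvd_prime_iff_eq Nat.prime_three hp).1 (Nat.prime_three.dvd_of_dvd_pow h3)
      omega
  have hc : Nat.card Kˣ = (q - 1) * (q + 1) := by
    rw [Nat.card_units, Nat.card_eq_fintype_card, hK]
    obtain ⟨t, rfl⟩ := Nat.exists_eq_add_of_le hq
    have e1 : 2 + t - 1 = t + 1 := by omega
    have e2 : (2 + t) ^ 2 = (t + 1) * (2 + t + 1) + 1 := by ring
    rw [e1, e2, Nat.add_sub_cancel]
  obtain ⟨g, hg⟩ := IsCyclic.exists_generator (α := Kˣ)
  have hg' : orderOf g = (q - 1) * (q + 1) := by rw [orderOf_eq_card_of_forall_mem_zpowers hg, hc]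
  have hg2 : orderOf (g ^ (q - 1)) = q + 1 := by
    rw [orderOf_pow, hg', Nat.gcd_eq_right (Dvd.intro _ rfl), Nat.mul_div_cancel_left _ (by omega)]
  refine ⟨((g ^ (q - 1) : Kˣ) : K), ?_, ?_⟩
  · have h1 : (g ^ (q - 1)) ^ (q + 1) = 1 := by
      rw [← hg2]
      exact pow_orderOf_eq_one _
    have h2 := congrArg Units.val h1
    rw [Units.val_pow_eq_pow_val, Units.val_one, pow_succ'] at h2
    exact h2
  · intro h
    apply h7
    rw [← hg2]
    apply orderOf_dvd_of_pow_eq_one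
    apply Units.ext
    rw [Units.val_pow_eq_pow_val, Units.val_one]
    exact h

section main

variable {ι : Type} [Fintype ι] [DecidableEq ι] {F : Type u} [Field F] [Finite F] {P : Subgroup (GL ι F)}
  {K : Type} [Field K] [Fintype K] {N q : ℕ} (p : ℕ) [hp : Fact p.Prime] [hFp : CharP F p] [hKp : CharP K p]
include hp hFp hKp

set_option maxHeartbeats 1600000 in
/-- **`PSU_N(q)`, `N ≥ 6`.** -/
theorem ident_psu (hC : Core P) (hN : 6 ≤ N) (hK : Fintype.card K = q ^ 2) (e : Soc P ≃* PSU N K q)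
    (h13 : 13 ≤ Fintype.card ι)
    (hn : ∀ j, 1 ≤ j → Nat.card F ^ j = q ^ 2 →
      (j = 1 → Fintype.card ι ≤ 2 * N) ∧ (2 ≤ j → Fintype.card ι < 2 * (j * (N - 1)))) :
    ∃ (τ : K ≃+* F) (θ : (Fin N → F) ≃ₗ[F] (ι → F)), ∀ A : GL ι F,
      A ∈ P ↔ ∃ g : IU K q N, ∀ v, θ (((mt (IU K q N) g).map (τ : K →+* F)) *ᵥ v) = (A : Matrix ι ι F) *ᵥ θ v := by
  have hN3 : 3 ≤ N := by omega
  obtain ⟨r, hr⟩ : ∃ r, N = 2 * r ∨ N = 2 * r + 1 := ⟨N / 2, by omega⟩
  have hr3 : 3 ≤ r := by omega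
  have hNo : 2 * ((N - 1) / 2) + 1 = 2 * r - 1 ∨ 2 * ((N - 1) / 2) + 1 = 2 * r + 1 := by omega
  obtain ⟨W, hW, hW'⟩ : ∃ W : WFrame (PU hK N) r, Kind W ∧
      (N = 2 * r + 1 → ∃ d : Fin N → K, hermForm N K q d d = 1 ∧ W.V0 = Submodule.span K {d}) := by
    rcases hr with hr | hr
    · obtain ⟨W, hW⟩ := exists_wframe_even hK hr
      exact ⟨W, Or.inl hW, fun h => by omega⟩
    · obtain ⟨W, d, hd, hW⟩ := exists_wframe_odd hK hr
      exact ⟨W, Or.inr ⟨d, hd, hW⟩, fun _ => ⟨d, hd, hW⟩⟩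
  have hWf : Finite (CoxeterMatrix.B r).Group := TypeC.finite_W (CoxeterMatrix.B r).toCoxeterSystem
  have := finite_GL (K := K) (ν := Fin N)
  obtain ⟨p0, hp0, -⟩ := exists_adm hK W
  have hA : AmbT (toFrame W) p (modelSU hK hN3 W).I := AmbT.of_amb (amb_U hK W) p
  obtain ⟨φ₀, hφ₀, hker₀, C⟩ := exists_covSU (hN := hN3) (W := W) hC (by omega) (by omega) (hA := hA) hp0 e
  have hT : ∀ s ∈ (TB (modelSU hK hN3 W)).comap (MonoidHom.id (modelSU hK hN3 W).I),
      ∀ t ∈ (TB (modelSU hK hN3 W)).comap (MonoidHom.id (modelSU hK hN3 W).I), s * t = t * s :=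
    fun s hs t ht => comm_SU hW s hs t ht
  have hpow : ∀ t ∈ (TB (modelSU hK hN3 W)).comap (MonoidHom.id (modelSU hK hN3 W).I), t ^ Nat.card K = t :=
    fun t ht => pow_SU hW t ht
  -- the order of the field
  obtain ⟨c, -, hc⟩ := FiniteField.card K p
  rw [← Nat.card_eq_fintype_card] at hc
  obtain ⟨j, hj, hjK⟩ := C.exists_j hC hT (a := c) c.ne_zero (by rw [← hc]; exact hpow)
  rw [← hc] at hjK
  have hjq : Nat.card F ^ j = q ^ 2 := by rw [hjK, Nat.card_eq_fintype_card, hK]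
  obtain ⟨hn1, hn2⟩ := hn j hj hjq
  obtain ⟨hirr, hD⟩ := irr_B hC C hT
  have hne := hC.nonempty
  have hchar : CharP (AlgebraicClosure F) p := charP_of_injective_algebraMap (algebraMap F _).injective p
  -- the edges
  have hedge : ∀ i : Fin r, (i : ℕ) + 1 < r →
      i ∉ JB (modelSU hK hN3 W) p (MonoidHom.id (modelSU hK hN3 W).I) (φ₀.comp (modelSU hK hN3 W).φ) →
      ∃ m, 2 ≤ m ∧ dB (modelSU hK hN3 W) p (MonoidHom.id (modelSU hK hN3 W).I) (φ₀.comp (modelSU hK hN3 W).φ) i = m ^ j := by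
    intro i hi hiJ
    obtain ⟨σ, -, N₁, -⟩ := exists_ndI hp0 C hi (by
      intro e
      have := congrArg Fin.val e
      simp only at this
      omega)
    exact edge_pow_B hC C hT hiJ (⟨N₁.up, N₁.lo, N₁.tor⟩ : Nd _ _ i σ) hjK.symm
  -- the degree, weak form
  have hnlt' : j = 1 ∨ Fintype.card ι < 2 * (j * (2 * r + 1)) := by
    rcases Nat.lt_or_ge 1 j with h | h
    · right
      exact (hn2 h).trans_le (Nat.mul_le_mul_left _ (Nat.mul_le_mul_left _ (by omega)))
    · left; omega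
  by_cases hmid : ∃ i : Fin r, i ∉ JB (modelSU hK hN3 W) p (MonoidHom.id (modelSU hK hN3 W).I)
      (φ₀.comp (modelSU hK hN3 W).φ) ∧ 1 ≤ (i : ℕ) ∧ (i : ℕ) + 1 < r
  · exfalso
    obtain ⟨i, hi, hi1, hi2⟩ := hmid
    have hd := hedge i hi2 hi
    have hb := bound_all hC C hT hi
    rcases Nat.lt_or_ge 3 r with hr4 | hr4
    · rcases hnlt' with h1 | h1
      · subst h1
        have h2 := Ar.six_mul_le hr4 (by omega : 2 ≤ (i : ℕ) + 1) hi2
        obtain ⟨m, hm, hdm⟩ := hd
        rw [pow_one] at hdm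
        rw [hdm] at hb
        have h3 := (Nat.mul_le_mul h2 hm).trans hb
        have h4 := hn1 rfl
        omega
      · exact Ar.mid hr4 hj h1 hd hi1 hi2 hb
    · obtain rfl : r = 3 := by omega
      have hi1' : (i : ℕ) = 1 := by omega
      rw [hi1'] at hb
      have hb' : 12 * dB (modelSU hK hN3 W) p (MonoidHom.id (modelSU hK hN3 W).I) (φ₀.comp (modelSU hK hN3 W).φ) i ≤
          2 * Fintype.card ι := by
        have e1 : Nat.choose 3 (1 + 1) * 2 ^ (1 + 1) = 12 := by decide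
        rwa [e1] at hb
      have h3 := H762.Ppd.Low.b3_mid C.rgd hirr rfl hi1' hi
      have h4 := finrank_Io C.rgd hirr i
      rw [hD, Module.finrank_fintype_fun_eq_card, mul_one] at h3
      rw [hD] at h4
      -- `j = 1`
      have hj1 : j = 1 := by
        by_contra hj1
        have h5 := hn2 (by omega)
        exact hj1 (Ar.mid_seven hj (h5.trans_le (Nat.mul_le_mul_left _ (Nat.mul_le_mul_left _ (by omega)))) hd hb' h4 h3)
      subst hj1
      have h6 := hn1 rfl
      rcases hr with hr | hr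
      · omega
      · subst hr
        by_cases h0 : (0 : Fin 3) ∈ JB (modelSU hK hN3 W) p (MonoidHom.id (modelSU hK hN3 W).I)
          (φ₀.comp (modelSU hK hN3 W).φ)
        · obtain rfl : i = 1 := Fin.ext hi1'
          obtain ⟨p', f, hp', hch, hqf, hf⟩ := LieClassical.HermBasic.exists_prime_pow hK
          obtain rfl : p' = p := CharP.eq K hch ‹_›
          have hF : Nat.card F = p' ^ (2 * f) := by
            rw [← pow_one (Nat.card F), hjq, hqf, ← pow_mul, mul_comm]
          obtain ⟨d, hd1, hV0⟩ := hW' rfl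
          obtain ⟨c', hc1, hc2⟩ := exists_norm_one hK
          have h5 := mid_bound_seven hC hp0 C hT hi h0 hF hqf (Nat.gcd_eq_right (Dvd.intro_left 2 rfl)) hd1 hV0
            hc1 hc2 (ker_comp hker₀) (perfect_I (by omega))
          omega
        · have h5 := Low.b3_01 C.rgd hirr rfl (i := 0) (j := i) rfl hi1' h0 hi
          rw [hD, Module.finrank_fintype_fun_eq_card] at h5
          omega
  have hends : ∀ i : Fin r, i ∉ JB (modelSU hK hN3 W) p (MonoidHom.id (modelSU hK hN3 W).I)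
      (φ₀.comp (modelSU hK hN3 W).φ) → (i : ℕ) = 0 ∨ (i : ℕ) + 1 = r := by
    intro i hi
    by_contra hcon
    have := i.2
    exact hmid ⟨i, hi, by omega, by omega⟩
  by_cases h0 : (⟨0, by omega⟩ : Fin r) ∈ JB (modelSU hK hN3 W) p (MonoidHom.id (modelSU hK hN3 W).I)
      (φ₀.comp (modelSU hK hN3 W).φ)
  · -- the last node
    exfalso
    have hJ : ∀ i, i ∉ JB (modelSU hK hN3 W) p (MonoidHom.id (modelSU hK hN3 W).I)
        (φ₀.comp (modelSU hK hN3 W).φ) → i = ⟨r - 1, by omega⟩ := by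
      intro i hi
      rcases hends i hi with h1 | h1
      · exact absurd h0 (by
          have : i = ⟨0, by omega⟩ := Fin.ext h1
          rwa [this] at hi)
      · exact Fin.ext (by simp only; omega)
    obtain ⟨i, hi⟩ := exists_node hC C hT
    have hi' := hJ i hi
    rw [hi'] at hi
    obtain ⟨p', f, hp', hch, hqf, hf⟩ := LieClassical.HermBasic.exists_prime_pow hK
    obtain rfl : p' = p := CharP.eq K hch ‹_›
    have := Fintype.ofFinite F
    obtain ⟨a, -, ha⟩ := FiniteField.card F p'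
    rw [← Nat.card_eq_fintype_card] at ha
    have hs : f / Nat.gcd a f * Nat.gcd a f = f := Nat.div_mul_cancel (Nat.gcd_dvd_right _ _)
    set s := f / Nat.gcd a f with hsdef
    have haj : (a : ℕ) * j = 2 * f := by
      have h1 : p' ^ ((a : ℕ) * j) = p' ^ (2 * f) := by
        rw [pow_mul, ← ha, hjq, hqf, ← pow_mul, mul_comm]
      exact Nat.pow_right_injective hp'.two_le h1
    have hjs : j ≤ 2 * s := by
      have h1 : Nat.gcd a f ≤ a := Nat.gcd_le_left _ a.pos
      have h2 : (a : ℕ) * j ≤ a * (2 * s) := by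
        rw [haj]
        calc 2 * f = 2 * (s * Nat.gcd a f) := by rw [hs]
          _ ≤ 2 * (s * a) := Nat.mul_le_mul_left _ (Nat.mul_le_mul_left _ h1)
          _ = a * (2 * s) := by ring
      exact Nat.le_of_mul_le_mul_left h2 a.pos
    have h5 := last_bound hC hp0 C hT hr3 (by simp only; omega) hi hJ ha hqf hs
    rcases Nat.lt_or_ge 1 j with hj2 | hj2
    · have hnlt : Fintype.card ι < 2 * (j * (2 * ((N - 1) / 2) + 1)) :=
        (hn2 hj2).trans_le (Nat.mul_le_mul_left _ (Nat.mul_le_mul_left _ (by omega)))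
      obtain ⟨h6, h7, h8⟩ := Ar.last hr3 hj hNo hnlt hjs h5
      subst h6
      obtain ⟨d, hd, hV0⟩ := hW' (by omega)
      obtain rfl : N = 7 := by omega
      have h9 := H69.Ppd.seven_last hN3 W (Or.inr ⟨d, hd, hV0⟩) hφ₀ hC.absIrred (i := 2) (by decide) hd hV0
        (not_mem_witt hC hp0 C hT hi) (by rw [h8] at hjq; exact hjq)
      rw [h7, h8] at hnlt
      omega
    · obtain rfl : j = 1 := by omega
      have h6 := hn1 rfl
      have h7 := Ar.rank_ge hr3
      have h8 : 4 ≤ 4 ^ s := by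
        calc 4 = 4 ^ 1 := by norm_num
          _ ≤ 4 ^ s := Nat.pow_le_pow_right (by norm_num) (by omega)
      have h9 : 2 ^ (r - 3) * 20 ≤ Fintype.card ι := le_trans (Nat.mul_le_mul_left _ (by omega)) h5
      have h10 : 1 ≤ 2 ^ (r - 3) := Nat.one_le_two_pow
      omega
  · -- the first node
    obtain ⟨ε, hε, h3⟩ := bound_first hC C hT (by omega) rfl h0
    obtain ⟨hj1, hd2⟩ : j = 1 ∧ dB (modelSU hK hN3 W) p (MonoidHom.id (modelSU hK hN3 W).I)
        (φ₀.comp (modelSU hK hN3 W).φ) ⟨0, by omega⟩ ≤ 2 := by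
      rcases hnlt' with h1 | h1
      · subst h1
        refine ⟨rfl, ?_⟩
        by_contra hd2
        exact first_one hr3 (by omega) (hn1 rfl) (by omega) h3
      · exact Ar.first hr3 hj h1 (hedge _ (by simp only; omega) h0) hε h3
    subst hj1
    have hn3 := hn1 rfl
    by_cases hl : (⟨r - 1, by omega⟩ : Fin r) ∈ JB (modelSU hK hN3 W) p (MonoidHom.id (modelSU hK hN3 W).I)
      (φ₀.comp (modelSU hK hN3 W).φ)
    · exact identify_B hC hA hp0 (by omega) (span_IU hK hN3) C hT (o := ⟨0, by omega⟩) rfl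
        (fun i hi => by
          rcases hends i hi with h1 | h1
          · exact Fin.ext h1
          · exact absurd hl (by
              have : i = ⟨r - 1, by omega⟩ := Fin.ext (by simp only; omega)
              rwa [this] at hi)) hd2
    · exfalso
      rcases Nat.lt_or_ge 4 r with hr5 | hr5
      · obtain ⟨ε', -, h4⟩ := bound_last hC C hT (i := ⟨r - 1, by omega⟩) (by simp only; omega) hl
        have h5 := pow_five' hr5
        omega
      · rcases Nat.lt_or_ge 3 r with hr4 | hr4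
        · obtain rfl : r = 4 := by omega
          have h5 := Low.b4_03 C.rgd hirr rfl (i := ⟨0, by omega⟩) (j := ⟨4 - 1, by omega⟩) rfl rfl h0 hl
          rw [hD, Module.finrank_fintype_fun_eq_card] at h5
          omega
        · obtain rfl : r = 3 := by omega
          have h5 := Low.b3_02 C.rgd hirr rfl (i := ⟨0, by omega⟩) (j := ⟨3 - 1, by omega⟩) rfl rfl h0 hl
          rw [hD, Module.finrank_fintype_fun_eq_card] at h5
          omega

end main

end Cfsg.Agent.H312.EPU
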