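import Cfsg.Agent.H312.EPU.Num

/-!
# Numerics for the unitary row of S3499-VII13, general exponent (helper312)

* `DegOK N n j` : the degree bounds which are used;
* `degOK` : they follow from `|F| ^ (n (n - 1) / 2) ≤ 8 |Q|`, `|Q| ≤ |A| ^ c`, `|A| ≤ q ^ (N ^ 2)`.
-/

set_option autoImplicit false

namespace Cfsg.Agent.H312.EPU

open Cfsg

/-- the degree bound for the rank `r ≥ 4` -/
def TT (r : ℕ) : ℕ := if r = 4 then 21 else if r = 5 then 26 else 2 * r * (r - 1)

theorem TT_four : TT 4 = 21 := rfl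

theorem TT_five : TT 5 = 26 := rfl

theorem TT_six {r : ℕ} (h : 6 ≤ r) : TT r = 2 * r * (r - 1) := by
  unfold TT
  rw [if_neg (by omega), if_neg (by omega)]

/-- the degree bounds -/
structure DegOK (N n j : ℕ) : Prop where
  one : N ≤ 7 → j = 1 → n ≤ 2 * N
  two : N ≤ 7 → 2 ≤ j → n < 2 * (j * (N - 1))
  big : 8 ≤ N → n < j * TT (N / 2)
  four : N / 2 = 4 → j = 2 → n < 40

theorem choose_pow_ge {n k : ℕ} (hk : 2 ≤ k) (h : k < n) : 2 * n * (n - 1) ≤ n.choose k * 2 ^ k := by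
  induction n generalizing k with
  | zero => omega
  | succ n ih =>
    have h3 : 3 ≤ n + 1 := by omega
    rw [Nat.add_sub_cancel]
    obtain ⟨m, rfl⟩ : ∃ m, n = m + 2 := ⟨n - 2, by omega⟩
    rcases Nat.lt_or_ge 2 k with h2 | h2
    · obtain ⟨k, rfl⟩ : ∃ l, k = l + 1 := ⟨k - 1, by omega⟩
      rw [Nat.choose_succ_succ, Nat.succ_eq_add_one]
      rcases Nat.lt_or_ge (k + 1) (m + 2) with h4 | h4
      · have h5 := ih (k := k) (by omega) (by omega)
        have h6 := ih (k := k + 1) (by omega) h4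
        have e1 : m + 2 - 1 = m + 1 := by omega
        rw [e1] at h5 h6
        have e2 : ((m + 2).choose k + (m + 2).choose (k + 1)) * 2 ^ (k + 1) =
            2 * ((m + 2).choose k * 2 ^ k) + (m + 2).choose (k + 1) * 2 ^ (k + 1) := by
          rw [pow_succ]; ring
        rw [e2]
        nlinarith
      · have hkm : k = m + 1 := by omega
        subst hkm
        have e3 : (m + 2).choose (m + 1) = m + 2 := Nat.choose_succ_self_right (m + 1)
        have e4 : (m + 1 + 1 : ℕ) = m + 2 := rfl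
        rw [e4, Nat.choose_self, e3]
        have h5 := H762.Ppd.Ar.two_mul_le_pow (j := m + 2) (by omega)
        nlinarith
    · obtain rfl : k = 2 := by omega
      have h6 : (m + 2 + 1).choose 2 * 2 = (m + 2 + 1) * (m + 2) := by
        rw [Nat.choose_two_right, Nat.add_sub_cancel]
        exact Nat.div_mul_cancel (by
          have := (Nat.even_mul_pred_self (m + 2 + 1)).two_dvd
          rwa [Nat.add_sub_cancel] at this)
      have : (m + 2 + 1).choose 2 * 2 ^ 2 = 2 * ((m + 2 + 1).choose 2 * 2) := by ring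
      rw [this, h6]
      nlinarith

theorem TT_le {r : ℕ} (h : 4 ≤ r) : TT r ≤ 2 * r * (r - 1) := by
  rcases Nat.lt_or_ge r 6 with h1 | h1
  · obtain rfl | rfl : r = 4 ∨ r = 5 := by omega
    · decide
    · decide
  · exact (TT_six h1).le

theorem TT_le_choose {r k : ℕ} (h : 4 ≤ r) (hk : 2 ≤ k) (h' : k < r) : TT r ≤ r.choose k * 2 ^ k :=
  (TT_le h).trans (choose_pow_ge hk h')

theorem sq_le_pow {r : ℕ} (h : 6 ≤ r) : 2 * r * (r - 1) ≤ 2 ^ r := by
  induction r, h using Nat.le_induction with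
  | base => norm_num
  | succ r hr ih =>
    rw [pow_succ, Nat.add_sub_cancel]
    obtain ⟨t, rfl⟩ := Nat.exists_eq_add_of_le hr
    have e : 6 + t - 1 = 5 + t := by omega
    rw [e] at ih
    nlinarith

theorem TT_le_pow {r : ℕ} (h : 5 ≤ r) : TT r ≤ 2 ^ r := by
  rcases Nat.lt_or_ge r 6 with h1 | h1
  · obtain rfl : r = 5 := by omega
    decide
  · rw [TT_six h1]
    exact sq_le_pow h1

theorem TT_le_last {r : ℕ} (h : 5 ≤ r) : TT r ≤ 10 * 2 ^ (r - 3) := by
  have h1 := TT_le_pow h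
  have h2 : 2 ^ r = 8 * 2 ^ (r - 3) := by
    have : 8 = 2 ^ 3 := by norm_num
    rw [this, ← pow_add]
    congr 1
    omega
  omega

/-- the middle nodes -/
theorem mid_c {r j n d i N : ℕ} (hr : 4 ≤ r) (hN : N / 2 = r) (h : DegOK N n j)
    (hd : ∃ m, 2 ≤ m ∧ d = m ^ j) (hj : 1 ≤ j) (hi : 1 ≤ i) (hi' : i + 1 < r)
    (h' : (r.choose (i + 1) * 2 ^ (i + 1)) * d ≤ 2 * n) : False := by
  have h1 := H762.Ppd.Ar.le_pow hd
  have h2 := H762.Ppd.Ar.two_mul_le_pow hj
  have h3 := TT_le_choose hr (by omega : 2 ≤ i + 1) hi'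
  have h4 : TT r * (2 * j) ≤ 2 * n := (Nat.mul_le_mul h3 (h2.trans h1)).trans h'
  have h5 := h.big (by omega)
  rw [hN] at h5
  nlinarith

/-- the first node -/
theorem first_c {r j n d ε N : ℕ} (hr : 3 ≤ r) (hN : N / 2 = r) (h : DegOK N n j)
    (hd : ∃ m, 2 ≤ m ∧ d = m ^ j) (hj : 1 ≤ j) (hε : d ≤ ε + 2) (h' : 2 * r + 2 * r * (r - 1) * ε ≤ n) :
    j = 1 ∧ d ≤ 2 := by
  rcases Nat.lt_or_ge 3 r with hr4 | hr4
  · by_contra hcon
    have h1 := H762.Ppd.Ar.le_pow hd
    have h2 := H762.Ppd.Ar.two_mul_le_pow hj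
    have h3 : j ≤ ε := by
      rcases Nat.lt_or_ge 1 j with h3 | h3
      · omega
      · have h4 : j = 1 := by omega
        by_contra h5
        exact hcon ⟨h4, by omega⟩
    have h4 := h.big (by omega)
    rw [hN] at h4
    have h5 : j * TT r ≤ 2 * r * (r - 1) * ε := by
      rw [mul_comm]
      exact Nat.mul_le_mul (TT_le (by omega)) h3
    omega
  · obtain rfl : r = 3 := by omega
    rcases Nat.lt_or_ge 1 j with h3 | h3
    · exact H762.Ppd.Ar.first hr hj ((h.two (by omega) h3).trans_le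
        (Nat.mul_le_mul_left _ (Nat.mul_le_mul_left _ (by omega)))) hd hε h'
    · obtain rfl : j = 1 := by omega
      refine ⟨rfl, ?_⟩
      by_contra hd2
      exact first_one hr (by omega) (h.one (by omega) rfl) (by omega) h'

/-- the last node -/
theorem last_c {r j n s N : ℕ} (hr : 3 ≤ r) (hN : N / 2 = r) (h : DegOK N n j) (hj : 1 ≤ j) (hs : j ≤ 2 * s)
    (h' : 2 ^ (r - 3) * (2 + 2 * (3 + 3 * (4 ^ s - 2))) ≤ n) : r = 3 ∧ N = 7 ∧ j = 2 := by
  have h4 : 2 ^ j ≤ 4 ^ s := by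
    calc 2 ^ j ≤ 2 ^ (2 * s) := Nat.pow_le_pow_right (by norm_num) hs
      _ = 4 ^ s := by rw [pow_mul]; norm_num
  have h4' : 4 ≤ 4 ^ s := by
    calc 4 = 4 ^ 1 := by norm_num
      _ ≤ 4 ^ s := Nat.pow_le_pow_right (by norm_num) (by omega)
  have h10 : 10 * j ≤ 2 + 2 * (3 + 3 * (4 ^ s - 2)) := by
    rcases Nat.lt_or_ge 2 j with h3 | h3
    · have h5 := H762.Ppd.Ar.pow_ge h3
      omega
    · omega
  rcases Nat.lt_or_ge 3 r with hr4 | hr4
  · exfalso
    have h5 := h.big (by omega)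
    rw [hN] at h5
    have h6 : 2 ^ (r - 3) * (10 * j) ≤ n := (Nat.mul_le_mul_left _ h10).trans h'
    rcases Nat.lt_or_ge 4 r with hr5 | hr5
    · have h7 := TT_le_last hr5
      nlinarith
    · obtain rfl : r = 4 := by omega
      rw [TT_four] at h5
      have e : 2 ^ (4 - 3) = 2 := rfl
      rw [e] at h'
      rcases Nat.lt_or_ge 2 j with h3 | h3
      · have h7 := H762.Ppd.Ar.pow_ge h3
        omega
      · obtain rfl | rfl : j = 1 ∨ j = 2 := by omega
        · omega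
        · have h8 := h.four hN rfl
          omega
  · obtain rfl : r = 3 := by omega
    have hN' : N = 6 ∨ N = 7 := by omega
    rcases Nat.lt_or_ge 1 j with h3 | h3
    · obtain ⟨h6, h7, h8⟩ := H762.Ppd.Ar.last (No := 2 * ((N - 1) / 2) + 1) (r := 3) le_rfl hj (by omega)
        ((h.two (by omega) h3).trans_le (Nat.mul_le_mul_left _ (Nat.mul_le_mul_left _ (by omega)))) hs h'
      exact ⟨rfl, by omega, h8⟩
    · obtain rfl : j = 1 := by omega
      have h5 := h.one (by omega) rfl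
      have e : 2 ^ (3 - 3) = 1 := rfl
      rw [e] at h'
      omega

theorem TT_sq {r c N : ℕ} (hr : 4 ≤ r) (hN : N / 2 = r) (h8 : c ≤ 5 ∨ (12 ≤ N ∧ c ≤ N)) :
    c * N ^ 2 + 6 < TT r * (TT r - 1) := by
  rcases Nat.lt_or_ge r 6 with h1 | h1
  · have hc : c ≤ 5 := by omega
    obtain rfl | rfl : r = 4 ∨ r = 5 := by omega
    · rw [TT_four]
      obtain rfl | rfl : N = 8 ∨ N = 9 := by omega
      · omega
      · omega
    · rw [TT_five]
      obtain rfl | rfl : N = 10 ∨ N = 11 := by omega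
      · omega
      · omega
  · have hc : c ≤ N := by omega
    have h2 : c * N ^ 2 ≤ (2 * r + 1) * (2 * r + 1) ^ 2 :=
      Nat.mul_le_mul (by omega) (Nat.pow_le_pow_left (by omega) 2)
    rw [TT_six h1]
    obtain ⟨t, rfl⟩ := Nat.exists_eq_add_of_le h1
    have e1 : 6 + t - 1 = 5 + t := by omega
    rw [e1]
    obtain ⟨s, hs⟩ : ∃ s, 2 * (6 + t) * (5 + t) = s + 1 := ⟨2 * (6 + t) * (5 + t) - 1, by
      have : 0 < 2 * (6 + t) * (5 + t) := by positivity
      omega⟩
    have h3 : 2 * (6 + t) * (5 + t) - 1 = s := by omega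
    rw [h3]
    have h4 : 59 + 22 * t ≤ s := by nlinarith
    have h5 : (2 * (6 + t) * (5 + t)) * (59 + 22 * t) ≤ 2 * (6 + t) * (5 + t) * s := Nat.mul_le_mul_left _ h4
    refine lt_of_lt_of_le ?_ h5
    refine lt_of_le_of_lt (Nat.add_le_add_right h2 6) ?_
    nlinarith [mul_nonneg (Nat.zero_le t) (Nat.zero_le t), mul_nonneg (mul_nonneg (Nat.zero_le t) (Nat.zero_le t)) (Nat.zero_le t)]

theorem degOK {Φ q j n N X A c : ℕ} (hΦ : 2 ≤ Φ) (hj : 1 ≤ j) (hjq : Φ ^ j = q ^ 2)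
    (ho : Φ ^ (n * (n - 1) / 2) ≤ 8 * X) (hUB : X ≤ A ^ c) (hA : A ≤ q ^ (N ^ 2)) (hN : 6 ≤ N)
    (h7 : N ≤ 7 → c ≤ 4) (h8 : 8 ≤ N → c ≤ 5 ∨ (12 ≤ N ∧ c ≤ N)) : DegOK N n j := by
  have h1 : Φ ^ (n * (n - 1)) ≤ Φ ^ (j * c * N ^ 2 + 6) := by
    have h3 : n * (n - 1) / 2 * 2 = n * (n - 1) := Nat.div_mul_cancel (Nat.even_mul_pred_self n).two_dvd
    calc Φ ^ (n * (n - 1)) = (Φ ^ (n * (n - 1) / 2)) ^ 2 := by rw [← pow_mul, h3]
      _ ≤ (8 * (q ^ (N ^ 2)) ^ c) ^ 2 := Nat.pow_le_pow_left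
          (ho.trans (Nat.mul_le_mul_left _ (hUB.trans (Nat.pow_le_pow_left hA c)))) 2
      _ = 64 * Φ ^ (j * c * N ^ 2) := by
          have e : j * c * N ^ 2 = j * (c * N ^ 2) := by ring
          have e' : N ^ 2 * c * 2 = 2 * (c * N ^ 2) := by ring
          rw [mul_pow, ← pow_mul q, ← pow_mul q, e, pow_mul Φ, hjq, ← pow_mul, e']
          norm_num
      _ ≤ Φ ^ (j * c * N ^ 2 + 6) := by
          rw [pow_add, mul_comm]
          exact Nat.mul_le_mul_left _ (by
            calc 64 = 2 ^ 6 := by norm_num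
              _ ≤ Φ ^ 6 := Nat.pow_le_pow_left hΦ 6)
  have h2 : n * (n - 1) ≤ j * c * N ^ 2 + 6 := (Nat.pow_le_pow_iff_right (by omega)).1 h1
  have hq1 : 1 ≤ q := by
    rcases Nat.eq_zero_or_pos q with h | h
    · rw [h] at hjq
      have : 0 < Φ ^ j := Nat.pow_pos (by omega)
      rw [hjq] at this
      simp at this
    · exact h
  have h4 : N ≤ 7 → n * (n - 1) ≤ 4 * j * N ^ 2 + 6 := by
    intro h
    refine h2.trans (Nat.add_le_add_right (Nat.mul_le_mul_right _ ?_) _)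
    rw [mul_comm 4 j]
    exact Nat.mul_le_mul_left _ (h7 h)
  refine ⟨?_, ?_, ?_, ?_⟩
  · rintro hN7 rfl
    have h4 := h4 hN7
    by_contra hcon
    have h5 : (2 * N + 1) * (2 * N) ≤ n * (n - 1) := Nat.mul_le_mul (by omega) (by omega)
    nlinarith
  · intro hN7 hj2
    have h4 := h4 hN7
    by_contra hcon
    obtain ⟨i, rfl⟩ := Nat.exists_eq_add_of_le hj2
    obtain rfl | rfl : N = 6 ∨ N = 7 := by omega
    · have h5 : (20 + 10 * i) * (19 + 10 * i) ≤ n * (n - 1) := Nat.mul_le_mul (by omega) (by omega)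
      nlinarith
    · have h5 : (24 + 12 * i) * (23 + 12 * i) ≤ n * (n - 1) := Nat.mul_le_mul (by omega) (by omega)
      nlinarith
  · intro hN8
    have h5 := TT_sq (r := N / 2) (c := c) (N := N) (by omega) rfl (h8 hN8)
    set T := TT (N / 2) with hT
    by_contra hcon
    have hcon' : j * T ≤ n := by omega
    have h6 : (j * T) * (j * T - 1) ≤ n * (n - 1) := Nat.mul_le_mul hcon' (by omega)
    have h7 : T * 1 ≤ T * j := Nat.mul_le_mul_left _ hj
    have h7' : T ≤ j * T := by rw [mul_comm]; omega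
    have h8 : j * (T * (T - 1)) ≤ (j * T) * (j * T - 1) := by
      rw [← mul_assoc]
      exact Nat.mul_le_mul_left _ (by omega)
    have h9 : j * (c * N ^ 2 + 6 + 1) ≤ j * (T * (T - 1)) := Nat.mul_le_mul_left _ h5
    have h10 : j * (c * N ^ 2 + 6 + 1) = j * c * N ^ 2 + 7 * j := by ring
    omega
  · rintro hN4 rfl
    have hc : c ≤ 5 := by
      rcases h8 (by omega) with h | h
      · exact h
      · omega
    have h5 : 2 * c * N ^ 2 ≤ 10 * 81 := Nat.mul_le_mul (by omega) (by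
      calc N ^ 2 ≤ 9 ^ 2 := Nat.pow_le_pow_left (by omega) 2
        _ = 81 := by norm_num)
    by_contra hcon
    have h6 : 40 * 39 ≤ n * (n - 1) := Nat.mul_le_mul (by omega) (by omega)
    omega

end Cfsg.Agent.H312.EPU
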