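import Cfsg.Agent.H312.EPU.NatU
import Cfsg.Agent.H312.EPU.NumC
import Cfsg.Agent.H312.EPU.LowC
import Cfsg.Agent.H312.EPU.Form

/-!
# S3499-VII13, own characteristic, socle `PSU_d(q)`, `d ≥ 6`, general exponent (helper312)

* `ident_psu'` : `Core P`, `Soc P ≃ PSU_N(q)`, `N ≥ 6`, degree at least 13 and bounded by `DegOK`: `P` is `SU_N(K)` in its
  natural action;
* **`own_psu_gen`** : with `|Q| ≤ |A| ^ c`, `c ≤ 4` for `d ≤ 7`, `c ≤ 5` or `12 ≤ d`, `c ≤ d` for `d ≥ 8`, the socle of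
  `A` (`Big A Γ S P`) is not `PSU_d(K)`, `d ≥ 6`, `char K = char F`.
-/

set_option autoImplicit false
set_option linter.unusedSectionVars false
set_option linter.style.haveILetI false

namespace Cfsg.Agent.H312.EPU

open CoxeterSystem Cfsg.Agent.ChevalleyStructure.CoxeterGeom Cfsg.Agent.Tits.Roots Cfsg.Agent.Tits.Core
  Cfsg.Agent.Nodes.Reps Cfsg.Agent.Nodes.BNOf Cfsg.Agent.Nodes.Bruhat Cfsg.Agent.Nodes.RGDLib
open Cfsg.Agent.Nodes Cfsg.Agent.Nodes.WittRoot Cfsg.Agent.Nodes.WittRGD Cfsg.Agent.Nodes.WittAll Cfsg.Agent.Nodes.WittU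
open Cfsg.Agent.Nodes.TypeC (isCartan)
open Cfsg.Agent.LieClassical.HermBasic Cfsg.Agent.LieClassical.HermSiegel
open Cfsg.Agent.TitsThree.Siegel Cfsg.Agent.TitsThree.SiegelGen Cfsg.Agent.TitsThree.WittFrame Cfsg.Agent.TitsThree.FrameCN
  Cfsg.Agent.TitsThree.WBridge Cfsg.Agent.TitsThree.KSideU Cfsg.Agent.TitsThree.KSideUDesc Cfsg.Agent.TitsThree
open Cfsg.Agent.H915.LD Cfsg.Agent.H911 Cfsg.Agent.H905.Md Cfsg.Agent.H925.Nat Cfsg.Agent.Nodes.RGDLift
open Cfsg.Agent.H156.Ppd (Cov lrep exists_cov)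
open Cfsg.Agent.Omega.CR Cfsg.Agent.Omega.FOne.Lift.Sd
open Cfsg.Agent.H948.Ppd Cfsg.Agent.H762.Ppd
open Cfsg.Agent.H61.SUCross Cfsg.Agent.H48.NatSU
open Cfsg Cfsg.Geo
open scoped MatrixGroups Matrix

universe u v w

section main

variable {ι : Type} [Fintype ι] [DecidableEq ι] {F : Type u} [Field F] [Finite F] {P : Subgroup (GL ι F)}
  {K : Type} [Field K] [Fintype K] {N q : ℕ} (p : ℕ) [hp : Fact p.Prime] [hFp : CharP F p] [hKp : CharP K p]
include hp hFp hKp

set_option maxHeartbeats 1600000 in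
/-- **`PSU_N(q)`, `N ≥ 6`.** -/
theorem ident_psu' (hC : Core P) (hN : 6 ≤ N) (hK : Fintype.card K = q ^ 2) (e : Soc P ≃* PSU N K q)
    (h13 : 13 ≤ Fintype.card ι)
    (hn : ∀ j, 1 ≤ j → Nat.card F ^ j = q ^ 2 → DegOK N (Fintype.card ι) j) :
    ∃ (τ : K ≃+* F) (θ : (Fin N → F) ≃ₗ[F] (ι → F)), ∀ A : GL ι F,
      A ∈ P ↔ ∃ g : IU K q N, ∀ v, θ (((mt (IU K q N) g).map (τ : K →+* F)) *ᵥ v) = (A : Matrix ι ι F) *ᵥ θ v := by
  have hN3 : 3 ≤ N := by omega
  obtain ⟨r, hr⟩ : ∃ r, N = 2 * r ∨ N = 2 * r + 1 := ⟨N / 2, by omega⟩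
  have hr3 : 3 ≤ r := by omega
  have hNo : 2 * ((N - 1) / 2) + 1 = 2 * r - 1 ∨ 2 * ((N - 1) / 2) + 1 = 2 * r + 1 := by omega
  obtain ⟨W, hW, hW'⟩ : ∃ W : WFrame (PU hK N) r, Kind W ∧
      (N = 2 * r + 1 → ∃ d : Fin N → K, hermForm N K q d d = 1 ∧ W.V0 = Submodule.span K {d}) := by
    rcases hr with hr | hr
    · obtain ⟨W, hW⟩ := exists_wframe_even hK hr
      exact ⟨W, Or.inl hW, fun h => by omega⟩
    · obtain ⟨W, d, hd, hW⟩ := exists_wframe_odd hK hr
      exact ⟨W, Or.inr ⟨d, hd, hW⟩, fun _ => ⟨d, hd, hW⟩⟩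
  have hWf : Finite (CoxeterMatrix.B r).Group := TypeC.finite_W (CoxeterMatrix.B r).toCoxeterSystem
  have := finite_GL (K := K) (ν := Fin N)
  obtain ⟨p0, hp0, -⟩ := exists_adm hK W
  have hA : AmbT (toFrame W) p (modelSU hK hN3 W).I := AmbT.of_amb (amb_U hK W) p
  obtain ⟨φ₀, hφ₀, hker₀, C⟩ := exists_covSU (hN := hN3) (W := W) hC (by omega) (by omega) (hA := hA) hp0 e
  have hT : ∀ s ∈ (TB (modelSU hK hN3 W)).comap (MonoidHom.id (modelSU hK hN3 W).I),
      ∀ t ∈ (TB (modelSU hK hN3 W)).comap (MonoidHom.id (modelSU hK hN3 W).I), s * t = t * s :=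
    fun s hs t ht => comm_SU hW s hs t ht
  have hpow : ∀ t ∈ (TB (modelSU hK hN3 W)).comap (MonoidHom.id (modelSU hK hN3 W).I), t ^ Nat.card K = t :=
    fun t ht => pow_SU hW t ht
  -- the order of the field
  obtain ⟨c, -, hc⟩ := FiniteField.card K p
  rw [← Nat.card_eq_fintype_card] at hc
  obtain ⟨j, hj, hjK⟩ := C.exists_j hC hT (a := c) c.ne_zero (by rw [← hc]; exact hpow)
  rw [← hc] at hjK
  have hjq : Nat.card F ^ j = q ^ 2 := by rw [hjK, Nat.card_eq_fintype_card, hK]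
  have hdeg := hn j hj hjq
  have hNr : N / 2 = r := by omega
  obtain ⟨hirr, hD⟩ := irr_B hC C hT
  have hne := hC.nonempty
  have hchar : CharP (AlgebraicClosure F) p := charP_of_injective_algebraMap (algebraMap F _).injective p
  -- the edges
  have hedge : ∀ i : Fin r, (i : ℕ) + 1 < r →
      i ∉ JB (modelSU hK hN3 W) p (MonoidHom.id (modelSU hK hN3 W).I) (φ₀.comp (modelSU hK hN3 W).φ) →
      ∃ m, 2 ≤ m ∧ dB (modelSU hK hN3 W) p (MonoidHom.id (modelSU hK hN3 W).I) (φ₀.comp (modelSU hK hN3 W).φ) i = m ^ j := by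
    intro i hi hiJ
    obtain ⟨σ, -, N₁, -⟩ := exists_ndI hp0 C hi (by
      intro e
      have := congrArg Fin.val e
      simp only at this
      omega)
    exact edge_pow_B hC C hT hiJ (⟨N₁.up, N₁.lo, N₁.tor⟩ : Nd _ _ i σ) hjK.symm
  by_cases hmid : ∃ i : Fin r, i ∉ JB (modelSU hK hN3 W) p (MonoidHom.id (modelSU hK hN3 W).I)
      (φ₀.comp (modelSU hK hN3 W).φ) ∧ 1 ≤ (i : ℕ) ∧ (i : ℕ) + 1 < r
  · exfalso
    obtain ⟨i, hi, hi1, hi2⟩ := hmid
    have hd := hedge i hi2 hi
    have hb := bound_all hC C hT hi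
    rcases Nat.lt_or_ge 3 r with hr4 | hr4
    · exact mid_c hr4 hNr hdeg hd hj hi1 hi2 hb
    · obtain rfl : r = 3 := by omega
      have hi1' : (i : ℕ) = 1 := by omega
      rw [hi1'] at hb
      have hb' : 12 * dB (modelSU hK hN3 W) p (MonoidHom.id (modelSU hK hN3 W).I) (φ₀.comp (modelSU hK hN3 W).φ) i ≤
          2 * Fintype.card ι := by
        have e1 : Nat.choose 3 (1 + 1) * 2 ^ (1 + 1) = 12 := by decide
        rwa [e1] at hb
      have h3 := H762.Ppd.Low.b3_mid C.rgd hirr rfl hi1' hi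
      have h4 := finrank_Io C.rgd hirr i
      rw [hD, Module.finrank_fintype_fun_eq_card, mul_one] at h3
      rw [hD] at h4
      -- `j = 1`
      have hj1 : j = 1 := by
        by_contra hj1
        have h5 := hdeg.two (by omega) (by omega)
        exact hj1 (Ar.mid_seven hj (h5.trans_le (Nat.mul_le_mul_left _ (Nat.mul_le_mul_left _ (by omega)))) hd hb' h4 h3)
      subst hj1
      have h6 := hdeg.one (by omega) rfl
      rcases hr with hr | hr
      · omega
      · subst hr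
        by_cases h0 : (0 : Fin 3) ∈ JB (modelSU hK hN3 W) p (MonoidHom.id (modelSU hK hN3 W).I)
          (φ₀.comp (modelSU hK hN3 W).φ)
        · obtain rfl : i = 1 := Fin.ext hi1'
          obtain ⟨p', f, hp', hch, hqf, hf⟩ := LieClassical.HermBasic.exists_prime_pow hK
          obtain rfl : p' = p := CharP.eq K hch ‹_›
          have hF : Nat.card F = p' ^ (2 * f) := by
            rw [← pow_one (Nat.card F), hjq, hqf, ← pow_mul, mul_comm]
          obtain ⟨d, hd1, hV0⟩ := hW' rfl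
          obtain ⟨c', hc1, hc2⟩ := exists_norm_one hK
          have h5 := mid_bound_seven hC hp0 C hT hi h0 hF hqf (Nat.gcd_eq_right (Dvd.intro_left 2 rfl)) hd1 hV0
            hc1 hc2 (ker_comp hker₀) (perfect_I (by omega))
          omega
        · have h5 := Low.b3_01 C.rgd hirr rfl (i := 0) (j := i) rfl hi1' h0 hi
          rw [hD, Module.finrank_fintype_fun_eq_card] at h5
          omega
  have hends : ∀ i : Fin r, i ∉ JB (modelSU hK hN3 W) p (MonoidHom.id (modelSU hK hN3 W).I)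
      (φ₀.comp (modelSU hK hN3 W).φ) → (i : ℕ) = 0 ∨ (i : ℕ) + 1 = r := by
    intro i hi
    by_contra hcon
    have := i.2
    exact hmid ⟨i, hi, by omega, by omega⟩
  by_cases h0 : (⟨0, by omega⟩ : Fin r) ∈ JB (modelSU hK hN3 W) p (MonoidHom.id (modelSU hK hN3 W).I)
      (φ₀.comp (modelSU hK hN3 W).φ)
  · -- the last node
    exfalso
    have hJ : ∀ i, i ∉ JB (modelSU hK hN3 W) p (MonoidHom.id (modelSU hK hN3 W).I)
        (φ₀.comp (modelSU hK hN3 W).φ) → i = ⟨r - 1, by omega⟩ := by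
      intro i hi
      rcases hends i hi with h1 | h1
      · exact absurd h0 (by
          have : i = ⟨0, by omega⟩ := Fin.ext h1
          rwa [this] at hi)
      · exact Fin.ext (by simp only; omega)
    obtain ⟨i, hi⟩ := exists_node hC C hT
    have hi' := hJ i hi
    rw [hi'] at hi
    obtain ⟨p', f, hp', hch, hqf, hf⟩ := LieClassical.HermBasic.exists_prime_pow hK
    obtain rfl : p' = p := CharP.eq K hch ‹_›
    have := Fintype.ofFinite F
    obtain ⟨a, -, ha⟩ := FiniteField.card F p'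
    rw [← Nat.card_eq_fintype_card] at ha
    have hs : f / Nat.gcd a f * Nat.gcd a f = f := Nat.div_mul_cancel (Nat.gcd_dvd_right _ _)
    set s := f / Nat.gcd a f with hsdef
    have haj : (a : ℕ) * j = 2 * f := by
      have h1 : p' ^ ((a : ℕ) * j) = p' ^ (2 * f) := by
        rw [pow_mul, ← ha, hjq, hqf, ← pow_mul, mul_comm]
      exact Nat.pow_right_injective hp'.two_le h1
    have hjs : j ≤ 2 * s := by
      have h1 : Nat.gcd a f ≤ a := Nat.gcd_le_left _ a.pos
      have h2 : (a : ℕ) * j ≤ a * (2 * s) := by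
        rw [haj]
        calc 2 * f = 2 * (s * Nat.gcd a f) := by rw [hs]
          _ ≤ 2 * (s * a) := Nat.mul_le_mul_left _ (Nat.mul_le_mul_left _ h1)
          _ = a * (2 * s) := by ring
      exact Nat.le_of_mul_le_mul_left h2 a.pos
    have h5 := last_bound hC hp0 C hT hr3 (by simp only; omega) hi hJ ha hqf hs
    obtain ⟨h6, h7, h8⟩ := last_c hr3 hNr hdeg hj hjs h5
    subst h6
    obtain ⟨d, hd, hV0⟩ := hW' (by omega)
    subst h7
    have h9 := H69.Ppd.seven_last hN3 W (Or.inr ⟨d, hd, hV0⟩) hφ₀ hC.absIrred (i := 2) (by decide) hd hV0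
      (not_mem_witt hC hp0 C hT hi) (by rw [h8] at hjq; exact hjq)
    have h10 := hdeg.two le_rfl (by omega)
    rw [h8] at h10
    omega
  · -- the first node
    obtain ⟨ε, hε, h3⟩ := bound_first hC C hT (by omega) rfl h0
    obtain ⟨hj1, hd2⟩ := first_c hr3 hNr hdeg (hedge _ (by simp only; omega) h0) hj hε h3
    subst hj1
    by_cases hl : (⟨r - 1, by omega⟩ : Fin r) ∈ JB (modelSU hK hN3 W) p (MonoidHom.id (modelSU hK hN3 W).I)
      (φ₀.comp (modelSU hK hN3 W).φ)
    · exact identify_B hC hA hp0 (by omega) (span_IU hK hN3) C hT (o := ⟨0, by omega⟩) rfl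
        (fun i hi => by
          rcases hends i hi with h1 | h1
          · exact Fin.ext h1
          · exact absurd hl (by
              have : i = ⟨r - 1, by omega⟩ := Fin.ext (by simp only; omega)
              rwa [this] at hi)) hd2
    · exfalso
      rcases Nat.lt_or_ge 4 r with hr5 | hr5
      · obtain ⟨ε', -, h4⟩ := bound_last hC C hT (i := ⟨r - 1, by omega⟩) (by simp only; omega) hl
        have h5 := TT_le_pow hr5
        have h6 := hdeg.big (by omega)
        rw [hNr] at h6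
        omega
      · rcases Nat.lt_or_ge 3 r with hr4 | hr4
        · obtain rfl : r = 4 := by omega
          have h5 := Low.b4_03c C.rgd hirr rfl (i := ⟨0, by omega⟩) (j := ⟨4 - 1, by omega⟩) rfl rfl h0 hl
          rw [hD, Module.finrank_fintype_fun_eq_card] at h5
          have h6 := hdeg.big (by omega)
          rw [hNr, TT_four] at h6
          omega
        · obtain rfl : r = 3 := by omega
          have h5 := Low.b3_02 C.rgd hirr rfl (i := ⟨0, by omega⟩) (j := ⟨3 - 1, by omega⟩) rfl rfl h0 hl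
          rw [hD, Module.finrank_fintype_fun_eq_card] at h5
          have h6 := hdeg.one (by omega) rfl
          omega

end main

section final

open Cfsg.Agent.H419.EP

variable {Q : Type} [Group Q] [Finite Q] {A : Subgroup Q} {Γ : Subgroup (MulAut Q)} {ι : Type} [Fintype ι]
    [DecidableEq ι] {F : Type} [Field F] [Fintype F] {S P : Subgroup (GL ι F)}

/-- **S3499-VII13-PSU-big**, general exponent. -/
theorem own_psu_gen (x : Big A Γ S P) {c : ℕ} (hUB : Nat.card Q ≤ Nat.card A ^ c) (K : Type) [Field K] [Fintype K]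
    (d q : ℕ) (hK : Fintype.card K = q ^ 2) (hd : 6 ≤ d) (hc : ringChar F = ringChar K) (h7 : d ≤ 7 → c ≤ 4)
    (h8 : 8 ≤ d → c ≤ 5 ∨ (12 ≤ d ∧ c ≤ d)) (hS : Nonempty (socle P ≃* Cfsg.PSU d K q)) : False := by
  obtain ⟨e⟩ := hS
  have hC : Core P := core_of_residual x.core
  have hKp : CharP K (ringChar F) := by
    rw [hc]
    exact ringChar.charP K
  have hFp : CharP F (ringChar F) := ringChar.charP F
  have hp : Fact (ringChar F).Prime := ⟨CharP.char_is_prime F _⟩
  have hfin : Finite (PSU d K q) := inferInstance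
  have hA : Nat.card A ≤ q ^ (d ^ 2) := (x.hasSoc' e).card_le.trans (aut_le hK (by omega) (by omega))
  obtain ⟨τ, θ, hθ⟩ := ident_psu' (ringChar F) hC hd hK e x.thirteen fun j hj hjq =>
    degOK x.two_le hj (by rw [← Nat.card_eq_fintype_card]; exact hjq) x.ord hUB hA hd h7 h8
  obtain ⟨σ, f, h1, h2, h3⟩ := form_of_ident hK τ θ hθ
  exact no_unitary x h1 h2 h3

end final

end Cfsg.Agent.H312.EPU
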