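import Cfsg.Agent.H312.EPU.Zed

/-!
# `SU_N(K)` of rank 3, `N` odd: the middle node, `15 ≤ |ι|` (helper312)

`mid_bound_seven` : the bound 14 of `H762.Ppd.mid_bound_su` is attained inside an eigenspace of the element
`z = diag(c, ..., c; c^{1-N})`, which is not everything.
-/

set_option autoImplicit false
set_option linter.unusedSectionVars false
set_option linter.style.haveILetI false

namespace Cfsg.Agent.H312.EPU

open CoxeterSystem Cfsg.Agent.ChevalleyStructure.CoxeterGeom Cfsg.Agent.Tits.Roots Cfsg.Agent.Tits.Core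
  Cfsg.Agent.Nodes.Reps Cfsg.Agent.Nodes.BNOf Cfsg.Agent.Nodes.Bruhat Cfsg.Agent.Nodes.RGDLib
open Cfsg.Agent.Nodes Cfsg.Agent.Nodes.WittRoot Cfsg.Agent.Nodes.WittRGD Cfsg.Agent.Nodes.WittAll Cfsg.Agent.Nodes.WittU
open Cfsg.Agent.Nodes.TypeC (isCartan sg sg_up sg_down sg_last sg_of_ne sg_sg ng ng_ng ng_fst ee ee_injective ee_add)
open Cfsg.Agent.LieClassical.HermBasic Cfsg.Agent.LieClassical.HermSiegel
open Cfsg.Agent.TitsThree.Siegel Cfsg.Agent.TitsThree.SiegelGen Cfsg.Agent.TitsThree.WittFrame Cfsg.Agent.TitsThree.FrameCN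
  Cfsg.Agent.TitsThree.WBridge Cfsg.Agent.TitsThree.KSideU Cfsg.Agent.TitsThree.KSideUDesc Cfsg.Agent.TitsThree
open Cfsg.Agent.H915.LD Cfsg.Agent.H911 Cfsg.Agent.H905.Md Cfsg.Agent.H925.Nat Cfsg.Agent.Nodes.RGDLift
open Cfsg.Agent.H156.Ppd (Cov lrep exists_cov)
open Cfsg.Agent.Omega.CR Cfsg.Agent.Omega.FOne.Lift.Sd
open Cfsg.Agent.H948.Ppd Cfsg.Agent.H117.Levi Cfsg.Agent.H762.Ppd
open Cfsg.Agent.H61.SUCross Cfsg.Agent.H48.NatSU
open Cfsg.Agent.H911.SLTwo (U Lo hh ww)
open Cfsg.Agent.H62.FrameSL (phiS)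
open Cfsg Cfsg.Geo
open scoped MatrixGroups Matrix

universe u v w

/-- in a perfect group an element central modulo the centre is central -/
theorem mem_center_of_perfect {Y : Type*} [Group Y] (hp : commutator Y = ⊤) {z : Y}
    (h : ∀ y, z * y * z⁻¹ * y⁻¹ ∈ Subgroup.center Y) : z ∈ Subgroup.center Y := by
  let f : Y →* Subgroup.center Y :=
    { toFun := fun y => ⟨z * y * z⁻¹ * y⁻¹, h y⟩
      map_one' := by
        apply Subtype.ext
        change z * 1 * z⁻¹ * 1⁻¹ = 1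
        group
      map_mul' := fun x y => by
        apply Subtype.ext
        change z * (x * y) * z⁻¹ * (x * y)⁻¹ = (z * x * z⁻¹ * x⁻¹) * (z * y * z⁻¹ * y⁻¹)
        have h1 := (Subgroup.mem_center_iff.1 (h y)) (x⁻¹)
        have e : z * (x * y) * z⁻¹ * (x * y)⁻¹ = z * x * z⁻¹ * ((z * y * z⁻¹ * y⁻¹) * x⁻¹) := by group
        rw [e, ← h1]
        group }
  have h1 : commutator Y ≤ f.ker := by
    rw [commutator_def, Subgroup.commutator_le]
    intro a _ b _
    rw [MonoidHom.mem_ker, map_commutatorElement, commutatorElement_eq_one_iff_mul_comm]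
    apply Subtype.ext
    exact (Subgroup.mem_center_iff.1 (f b).2 _)
  rw [Subgroup.mem_center_iff]
  intro y
  have h2 : y ∈ f.ker := h1 (by rw [hp]; trivial)
  have h3 : z * y * z⁻¹ * y⁻¹ = 1 := congrArg Subtype.val (MonoidHom.mem_ker.1 h2)
  have h4 : z * y = y * z := by
    have h5 : z * y = (z * y * z⁻¹ * y⁻¹) * (y * z) := by group
    rw [h3, one_mul] at h5
    exact h5
  exact h4.symm

variable {K : Type} [Field K] [Fintype K] {q N : ℕ} {hK : Fintype.card K = q ^ 2} {hN : 3 ≤ N} {W : WFrame (PU hK N) 3}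
variable {F : Type u} [Field F] [Finite F] {ι : Type} [Fintype ι] [DecidableEq ι] {P : Subgroup (GL ι F)}
  {p : ℕ} [hp : Fact p.Prime] [hFp : CharP F p] [hKp : CharP K p] (hC : Core P)
  {hA : AmbT (toFrame W) p (modelSU hK hN W).I} {p0 : (toFrame W).Adm} (hp0 : p0.c ≠ 0)
  {φ : (modelSU hK hN W).I →* GL ι F}
  (C : Cov (CoxeterMatrix.B 3).toCoxeterSystem (isCartan 3) p (TB (modelSU hK hN W)) (NB hA p0)
        (XB (modelSU hK hN W)) P (MonoidHom.id (modelSU hK hN W).I) φ (NB hA p0))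
include hC C hp0

theorem mid_bound_seven (hT : ∀ s ∈ (TB (modelSU hK hN W)).comap (MonoidHom.id (modelSU hK hN W).I),
      ∀ t ∈ (TB (modelSU hK hN W)).comap (MonoidHom.id (modelSU hK hN W).I), s * t = t * s)
    (h1 : (1 : Fin 3) ∉ JB (modelSU hK hN W) p (MonoidHom.id (modelSU hK hN W).I) φ)
    (h0 : (0 : Fin 3) ∈ JB (modelSU hK hN W) p (MonoidHom.id (modelSU hK hN W).I) φ)
    {a f : ℕ} (hF : Nat.card F = p ^ a) (hq : q = p ^ f) (hs : Nat.gcd a f = f)
    {d : Fin N → K} (hd : hermForm N K q d d = 1) (hV0 : W.V0 = Submodule.span K {d}) {c : K} (hc : c * c ^ q = 1)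
    (hcN : c ^ N ≠ 1) (hker : φ.ker ≤ Subgroup.center _) (hperf : commutator ↥(modelSU hK hN W).I = ⊤) :
    15 ≤ Fintype.card ι := by
  have hWf : Finite (CoxeterMatrix.B 3).Group := TypeC.finite_W (CoxeterMatrix.B 3).toCoxeterSystem
  have := finite_GL (K := K) (ν := Fin N)
  have hne := hC.nonempty
  have hchar : CharP (AlgebraicClosure F) p := charP_of_injective_algebraMap (algebraMap F _).injective p
  obtain ⟨hirr, hD⟩ := irr_B hC C hT
  have hamb := amb_U hK W
  have hkind : Kind W := Or.inr ⟨d, hd, hV0⟩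
  have hdV : d ∈ (toFrame W).V0 := by
    change d ∈ W.V0
    rw [hV0]
    exact Submodule.mem_span_singleton_self d
  -- the element `z`
  obtain ⟨z₀, hz₀I, hz₀⟩ := exists_zed hK hd hc (by omega)
  have hz₀comm : ∀ g : (modelSU hK hN W).I, (∃ ν : K, (g : (Fin N → K) ≃ₗ[K] (Fin N → K)) d = ν • d) →
      (⟨z₀, hz₀I⟩ : (modelSU hK hN W).I) * g = g * ⟨z₀, hz₀I⟩ := by
    rintro g ⟨ν, hν⟩
    exact Subtype.ext (zed_comm hK hd hz₀ g.2 hν)
  obtain ⟨z, hz⟩ : ∃ z : (modelSU hK hN W).I, z = ⟨z₀, hz₀I⟩ := ⟨_, rfl⟩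
  rw [← hz] at hz₀comm
  have hzT : z ∈ (TB (modelSU hK hN W)).comap (MonoidHom.id (modelSU hK hN W).I) := by
    rw [hz]
    change z₀ ∈ Tor (toFrame W) (modelSU hK hN W).I
    refine ⟨hz₀I, fun x => ⟨c, ?_, ?_⟩⟩
    · rintro rfl
      rw [zero_mul] at hc
      exact zero_ne_one hc
    · rw [hz₀]
      have h3 : hermForm N K q ((toFrame W).b x) d = 0 := (toFrame W).h0 x d hdV
      rw [h3, zero_smul, smul_zero, add_zero]
      rfl
  -- the first node
  have h01 : (⟨((0 : Fin 3) : ℕ) + 1, by norm_num⟩ : Fin 3) = 1 := rfl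
  obtain ⟨σ, hσ, N₀, hw⟩ := exists_ndI hp0 C (i := (0 : Fin 3)) (by norm_num) (by rw [h01]; decide)
  have hv : ∀ t x, ((σ (hh t) : (modelSU hK hN W).I) : (Fin N → K) ≃ₗ[K] (Fin N → K)) ((toFrame W).b x) =
      ev (HU hK N) 0 1 t x • (toFrame W).b x := by
    intro t x
    rw [hσ, phiS_b]
    rfl
  have hv0 : ∀ t, ∀ w ∈ (toFrame W).V0, ((σ (hh t) : (modelSU hK hN W).I) : (Fin N → K) ≃ₗ[K] (Fin N → K)) w = w := by
    intro t w hw
    rw [hσ, phiS_V0 _ _ hw]
  have hnorm : ∀ t : Kˣ, t ^ (q + 1) = 1 → (t : K) * (HU hK N).σ t = 1 := by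
    intro t ht
    have h1 := congrArg Units.val ht
    rw [Units.val_pow_eq_pow_val, pow_succ, Units.val_one, mul_comm] at h1
    exact h1
  have hm1 : Mono (toFrame W) ((NB hA p0 1 : (modelSU hK hN W).I) : (Fin N → K) ≃ₗ[K] (Fin N → K)) (sg 1) := mono_nn hp0 1
  have hm2 : Mono (toFrame W) ((NB hA p0 2 : (modelSU hK hN W).I) : (Fin N → K) ≃ₗ[K] (Fin N → K)) (sg 2) := mono_nn hp0 2
  have hm : Mono (toFrame W) ((NB hA p0 1 * NB hA p0 2 * NB hA p0 1 : (modelSU hK hN W).I) :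
      (Fin N → K) ≃ₗ[K] (Fin N → K)) (fun x => sg 1 (sg 2 (sg 1 x))) := (hm1.mul hm2).mul hm1
  have hrp : Rp (CoxeterMatrix.B 3).toCoxeterSystem C.rgd.nsys
      ((CoxeterMatrix.B 3).toCoxeterSystem.wordProd (Mid.wl 3)) (NB hA p0 1 * NB hA p0 2 * NB hA p0 1) := by
    have h2 := Mid.rp_gl C.rgd (Mid.wl 3)
    have h3 : Mid.gl (NB hA p0) (Mid.wl 3) = NB hA p0 1 * NB hA p0 2 * NB hA p0 1 := by
      simp [Mid.gl, Mid.wl, mul_assoc]
    rwa [h3] at h2
  -- the eigenspace
  obtain ⟨c0, hc0, hc00, χ, hχ⟩ := exists_chi C.rgd hirr hT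
  set E := Module.End.eigenspace (lin (acRep φ) z) (χ z) with hE
  have hDE : D (CoxeterMatrix.B 3).toCoxeterSystem (isCartan 3) (fun x => lft p (MonoidHom.id (modelSU hK hN W).I)
      (XB (modelSU hK hN W) x)) (lin (acRep φ)) ≤ E := by
    intro v hv
    obtain ⟨b, rfl⟩ := H650.Ppd.exists_smul_of_mem hD hc0 hc00 hv
    rw [hE, Module.End.mem_eigenspace_iff, map_smul, hχ z hzT, smul_comm]
  have hHE : Ivt (lin (acRep φ)) (Subgroup.centralizer {z}) E := by
    intro g hg v hv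
    rw [Subgroup.mem_centralizer_singleton_iff] at hg
    rw [hE, Module.End.mem_eigenspace_iff] at hv ⊢
    rw [← rho_mul, ← hg, rho_mul, hv, map_smul]
  have key : 14 ≤ Module.finrank (AlgebraicClosure F) E := by
    refine mid_bound_of C.rgd hirr hD h1 ?_ (H := Subgroup.centralizer {z}) ?_ ?_ ?_ ?_ hDE hHE
    · obtain ⟨g, hgd⟩ : ∃ g, g = NB hA p0 1 * NB hA p0 2 * NB hA p0 1 := ⟨_, rfl⟩
      rw [← hgd] at hm hrp ⊢
      have h4 := four_le_lrk C.rgd C.hGG hT C.range hC.absIrred N₀ hrp (Mid.hmin 3 0 rfl)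
        (Mid.hsep' h1 3 (by simp)) hw hK hF hq (s := 1) (by rw [one_mul]; exact hs) (fun t ht v hvD => by
          have e : g⁻¹ * σ (hh t) * g = σ (hh t) := by
            apply Subtype.ext
            refine eq_of_fix hamb (fun x => ?_) (fun w hw => ?_)
            · refine (conj_b (hv t) hm x).trans ?_
              rw [hv, ev_three (hnorm t ht)]
            · refine (conj_V0 hA g.2 (hv0 t) hm
                (ρ := fun x => sg 1 (sg 2 (sg 1 x))) (fun x => ?_) hw).trans (hv0 t w hw).symm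
              rw [sg_sg, sg_sg, sg_sg]
          rw [e]
          exact fix_node N₀ h0 _ hvD)
      rwa [pow_one] at h4
    · intro t ht
      rw [Subgroup.mem_centralizer_singleton_iff]
      exact hT _ ht _ hzT
    · intro x hx
      obtain ⟨t, rfl⟩ := (N₀.up _).1 hx
      rw [Subgroup.mem_centralizer_singleton_iff]
      refine (hz₀comm _ ⟨1, ?_⟩).symm
      rw [hσ, phiS_V0 _ _ hdV, one_smul]
    · intro x hx
      obtain ⟨t, rfl⟩ := (N₀.lo _).1 hx
      rw [Subgroup.mem_centralizer_singleton_iff]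
      refine (hz₀comm _ ⟨1, ?_⟩).symm
      rw [hσ, phiS_V0 _ _ hdV, one_smul]
    · intro i
      rw [Subgroup.mem_centralizer_singleton_iff]
      have hmi : Mono (toFrame W) ((NB hA p0 i : (modelSU hK hN W).I) : (Fin N → K) ≃ₗ[K] (Fin N → K)) (sg i) :=
        mono_nn hp0 i
      obtain ⟨ν, -, hν⟩ := exists_scal hkind (NB hA p0 i).2 hmi (ρ := sg i) (fun x => sg_sg _ _)
      exact (hz₀comm _ ⟨ν, hν d hdV⟩).symm
  -- the eigenspace is not everything
  have hlt : E < ⊤ := by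
    rw [lt_top_iff_ne_top]
    intro htop
    have hsc : ∀ v, lin (acRep φ) z v = χ z • v := by
      intro v
      have h3 : v ∈ E := by rw [htop]; trivial
      rwa [hE, Module.End.mem_eigenspace_iff] at h3
    have hcen : z ∈ Subgroup.center (modelSU hK hN W).I := by
      refine mem_center_of_perfect hperf fun y => hker ?_
      rw [MonoidHom.mem_ker]
      have h3 : φ (z * y) = φ (y * z) := by
        have h4 : lin (acRep φ) (z * y) = lin (acRep φ) (y * z) := by
          refine LinearMap.ext fun v => ?_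
          rw [rho_mul, rho_mul, hsc, hsc, map_smul]
        have h5 : acRep φ (z * y) = acRep φ (y * z) := Matrix.toLin'.injective h4
        rw [acRep_apply, acRep_apply] at h5
        apply Units.ext
        exact Matrix.map_injective (algebraMap F (AlgebraicClosure F)).injective h5
      have e : z * y * z⁻¹ * y⁻¹ = (z * y) * (y * z)⁻¹ := by group
      rw [e, map_mul, map_inv, h3, mul_inv_cancel]
    have h6 := zed_scalar hK hN hd hz₀ (fun g hg => by
      have h7 := (Subgroup.mem_center_iff.1 hcen) ⟨g, hg⟩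
      rw [hz] at h7
      exact (congrArg Subtype.val h7).symm)
    apply hcN
    have h8 : c = (c ^ (N - 1))⁻¹ := (sub_eq_zero.1 h6).symm
    have h9 : c ^ (N - 1) ≠ 0 := by
      refine pow_ne_zero _ ?_
      rintro rfl
      rw [zero_mul] at hc
      exact zero_ne_one hc
    calc c ^ N = c ^ (N - 1) * c := by rw [← pow_succ]; congr 1; omega
      _ = c ^ (N - 1) * (c ^ (N - 1))⁻¹ := by rw [← h8]
      _ = 1 := mul_inv_cancel₀ h9
  have h10 := Submodule.finrank_lt hlt.ne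
  rw [Module.finrank_fintype_fun_eq_card] at h10
  omega

end Cfsg.Agent.H312.EPU
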