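import Cfsg.Agent.H762.Ppd.MidSu
import Cfsg.Agent.H762.Ppd.Nat
import Cfsg.Agent.H312.EPU.Mid

/-!
# The element `z = diag(c, ..., c; c^{1-N})` of `SU_N(q)`, `N` odd (helper312)

* `exists_zed` : `z v = c v + (c^{1-N} - c) h(v, d) d`, `h(d, d) = 1`, `c c^q = 1`;
* `zed_comm` : `z` commutes with the isometries fixing `⟨d⟩`;
* `zed_not_central` : `z` is not central if `c ^ N ≠ 1`.
-/

set_option autoImplicit false
set_option linter.unusedSectionVars false
set_option linter.style.haveILetI false

namespace Cfsg.Agent.H312.EPU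

open Cfsg.Agent.LieClassical.HermBasic Cfsg.Agent.LieClassical.HermSiegel
open Cfsg.Agent.TitsThree Cfsg.Agent.TitsThree.KSideU Cfsg.Agent.TitsThree.KSideUDesc Cfsg.Agent.TitsThree.Siegel
open Cfsg.Agent.H925.Nat Cfsg.Agent.H762.Ppd Cfsg.Agent.Nodes.WittU
open Cfsg Cfsg.Geo Matrix
open scoped MatrixGroups Matrix

section zed

variable {K : Type} [Field K] [Fintype K] {q N : ℕ} (hK : Fintype.card K = q ^ 2)

/-- the matrix -/
def zm (q : ℕ) (d : Fin N → K) (c k : K) : Matrix (Fin N) (Fin N) K :=
  c • (1 : Matrix (Fin N) (Fin N) K) + k • Matrix.of fun i j => d i * d j ^ q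

omit [Fintype K] in
theorem zm_mulVec (d : Fin N → K) (c k : K) (v : Fin N → K) :
    zm q d c k *ᵥ v = c • v + k • (hermForm N K q v d • d) := by
  unfold zm
  rw [Matrix.add_mulVec, Matrix.smul_mulVec, Matrix.one_mulVec, Matrix.smul_mulVec]
  congr 2
  funext i
  rw [Pi.smul_apply, smul_eq_mul]
  simp only [Matrix.mulVec, dotProduct, Matrix.of_apply, hermForm]
  rw [Finset.sum_mul]
  exact Finset.sum_congr rfl fun j _ => by ring

omit [Fintype K] in
theorem zm_det {d : Fin N → K} (hd : hermForm N K q d d = 1) {c k : K} (hc : c ≠ 0) :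
    (zm q d c k).det * c = c ^ N * (c + k) := by
  have h1 : zm q d c k = c • ((1 : Matrix (Fin N) (Fin N) K) +
      Matrix.replicateCol Unit ((c⁻¹ * k) • d) * Matrix.replicateRow Unit (fun j => d j ^ q)) := by
    unfold zm
    rw [smul_add]
    congr 1
    ext i j
    simp only [Matrix.smul_apply, Matrix.of_apply, Matrix.mul_apply, Matrix.replicateCol_apply,
      Matrix.replicateRow_apply, Finset.univ_unique, Finset.sum_singleton, Pi.smul_apply, smul_eq_mul]
    field_simp
  have h2 : (fun j => d j ^ q) ⬝ᵥ ((c⁻¹ * k) • d) = c⁻¹ * k := by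
    rw [dotProduct_smul]
    have : (fun j => d j ^ q) ⬝ᵥ d = 1 := by
      rw [← hd]
      simp only [dotProduct, hermForm]
      exact Finset.sum_congr rfl fun j _ => by ring
    rw [this, smul_eq_mul, mul_one]
  rw [h1, Matrix.det_smul, Matrix.det_one_add_replicateCol_mul_replicateRow, h2, Fintype.card_fin]
  field_simp

include hK

theorem exists_zed {d : Fin N → K} (hd : hermForm N K q d d = 1) {c : K} (hc : c * c ^ q = 1) (hN : 1 ≤ N) :
    ∃ z ∈ IU K q N, ∀ v, z v = c • v + ((c ^ (N - 1))⁻¹ - c) • (hermForm N K q v d • d) := by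
  have hc0 : c ≠ 0 := by
    rintro rfl
    rw [zero_mul] at hc
    exact zero_ne_one hc
  set k := (c ^ (N - 1))⁻¹ - c with hk
  have hck : c + k = (c ^ (N - 1))⁻¹ := by rw [hk]; ring
  have hn1 : (c + k) * (c + k) ^ q = 1 := by
    have h1 : c ^ (N - 1) * (c ^ (N - 1)) ^ q = 1 := by
      rw [← pow_mul, mul_comm (N - 1) q, pow_mul, ← mul_pow, hc, one_pow]
    rw [hck, inv_pow, ← mul_inv, h1, inv_one]
  have hdet : (zm q d c k).det = 1 := by
    have h1 := zm_det (q := q) hd (k := k) hc0
    rw [hck] at h1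
    have h2 : c ^ N = c ^ (N - 1) * c := by
      rw [← pow_succ]
      congr 1
      omega
    rw [h2] at h1
    have h3 : c ^ (N - 1) ≠ 0 := pow_ne_zero _ hc0
    have h4 : c ^ (N - 1) * c * (c ^ (N - 1))⁻¹ = 1 * c := by field_simp
    rw [h4] at h1
    exact mul_right_cancel₀ hc0 h1
  have hpres : ∀ u v, hermForm N K q (zm q d c k *ᵥ u) (zm q d c k *ᵥ v) = hermForm N K q u v := by
    intro u v
    rw [zm_mulVec, zm_mulVec, herm_add_left, herm_add_right hK, herm_add_right hK, herm_smul_left, herm_smul_left,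
      herm_smul_left, herm_smul_left, herm_smul_right, herm_smul_right, herm_smul_left, herm_smul_right,
      herm_smul_right, herm_smul_left, herm_smul_right, herm_smul_right, hd, herm_swap hK v d]
    rw [add_pow_q hK] at hn1
    linear_combination (hermForm N K q u v) * hc + hermForm N K q u d * (hermForm N K q v d) ^ q * (hn1 - hc)
  refine ⟨toLin K q N ⟨⟨zm q d c k, hdet⟩, hpres⟩, ⟨_, rfl⟩, fun v => ?_⟩
  rw [← zm_mulVec]
  rfl

/-- `z` commutes with the isometries fixing `⟨d⟩` -/
theorem zed_comm {d : Fin N → K} (hd : hermForm N K q d d = 1) {c k : K} {z g : (Fin N → K) ≃ₗ[K] (Fin N → K)}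
    (hz : ∀ v, z v = c • v + k • (hermForm N K q v d • d)) (hg : g ∈ IU K q N) {ν : K} (hν : g d = ν • d) :
    z * g = g * z := by
  have hiso := isIso_IU hK hg
  have h1 : ν * ν ^ q = 1 := by
    have h2 : hermForm N K q (g d) (g d) = hermForm N K q d d := hiso d d
    rw [hν, herm_smul_left, herm_smul_right, hd, mul_one] at h2
    exact h2
  refine LinearEquiv.ext fun v => ?_
  change z (g v) = g (z v)
  rw [hz, hz, map_add, map_smul, map_smul, map_smul, hν]
  have h2 : hermForm N K q (g v) d = ν * hermForm N K q v d := by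
    have h3 : hermForm N K q (g v) (g d) = hermForm N K q v d := hiso v d
    rw [hν, herm_smul_right] at h3
    rw [← h3, ← mul_assoc, h1, one_mul]
  rw [h2]
  congr 2
  rw [smul_smul, mul_comm]

/-- `z` is not central -/
theorem zed_scalar (hN : 3 ≤ N) {d : Fin N → K} (hd : hermForm N K q d d = 1) {c k : K}
    {z : (Fin N → K) ≃ₗ[K] (Fin N → K)}
    (hz : ∀ v, z v = c • v + k • (hermForm N K q v d • d)) (hc : ∀ g ∈ IU K q N, z * g = g * z) : k = 0 := by
  -- `z` commutes with every matrix
  have hspan := span_IU hK hN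
  let Z : Matrix (Fin N) (Fin N) K := LinearMap.toMatrix' (z : (Fin N → K) →ₗ[K] (Fin N → K))
  have hZ : ∀ v, Z *ᵥ v = z v := by
    intro v
    change (LinearMap.toMatrix' _).mulVec v = _
    rw [← Matrix.toLin'_apply, Matrix.toLin'_toMatrix']
    rfl
  have hall : ∀ A : Matrix (Fin N) (Fin N) K, Z * A = A * Z := by
    intro A
    have hA : A ∈ Submodule.span K (Set.range (mt (IU K q N))) := by rw [hspan]; trivial
    induction hA using Submodule.span_induction with
    | mem x hx =>
      obtain ⟨g, rfl⟩ := hx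
      apply Matrix.toLin'.injective
      refine LinearMap.ext fun v => ?_
      rw [Matrix.toLin'_apply, Matrix.toLin'_apply, ← Matrix.mulVec_mulVec, ← Matrix.mulVec_mulVec, mt_mulVec, hZ, hZ,
        mt_mulVec]
      exact LinearEquiv.congr_fun (hc g.1 g.2) v
    | zero => rw [mul_zero, zero_mul]
    | add x y _ _ hx hy => rw [mul_add, add_mul, hx, hy]
    | smul a x _ hx => rw [mul_smul_comm, smul_mul_assoc, hx]
  -- apply to the matrices `w uᵀ`
  have key : ∀ w v : Fin N → K, ∀ i, (z v i) • w = v i • z w := by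
    intro w v i
    have h1 := congrArg (fun M : Matrix (Fin N) (Fin N) K => M *ᵥ v) (hall (Matrix.of fun a b => w a * (if b = i then 1 else 0)))
    simp only [← Matrix.mulVec_mulVec] at h1
    have h2 : ∀ x : Fin N → K, (Matrix.of fun a b => w a * (if b = i then (1 : K) else 0)) *ᵥ x = x i • w := by
      intro x
      funext a
      simp [Matrix.mulVec, dotProduct, mul_comm]
    rw [h2, h2, hZ, hZ, map_smul] at h1
    exact h1.symm
  by_contra hk
  have hd0 : d ≠ 0 := by
    rintro rfl
    rw [herm_zero_left] at hd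
    exact zero_ne_one hd
  obtain ⟨i, hi⟩ := Function.ne_iff.1 hd0
  rw [Pi.zero_apply] at hi
  have hzd : z d = (c + k) • d := by rw [hz, hd, one_smul, add_smul]
  have h3 : ∀ w, w = hermForm N K q w d • d := by
    intro w
    have h4 := key w d i
    rw [hzd, Pi.smul_apply, smul_eq_mul, hz] at h4
    have h5 : (d i * k) • w = (d i * k) • (hermForm N K q w d • d) := by
      have h6 : ((c + k) * d i) • w = (d i * c) • w + (d i * k) • (hermForm N K q w d • d) := by
        rw [h4, smul_add, smul_smul, smul_smul]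
      have h7 : ((c + k) * d i) • w = (d i * c) • w + (d i * k) • w := by
        rw [← add_smul]; congr 1; ring
      rw [h7] at h6
      exact add_left_cancel h6
    exact smul_right_injective _ (mul_ne_zero hi hk) h5
  obtain ⟨j, hj⟩ := Fintype.exists_ne_of_one_lt_card (show 1 < Fintype.card (Fin N) by rw [Fintype.card_fin]; omega) i
  have h4 := congrFun (h3 (Pi.single i 1)) j
  have h5 := congrFun (h3 (Pi.single i 1)) i
  have h6 := congrFun (h3 (Pi.single j 1)) j
  rw [Pi.single_eq_of_ne hj, Pi.smul_apply, smul_eq_mul] at h4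
  rw [Pi.single_eq_same, Pi.smul_apply, smul_eq_mul] at h5 h6
  rcases mul_eq_zero.1 h4.symm with h7 | h7
  · rw [h7, zero_mul] at h5
    exact one_ne_zero h5
  · rw [h7, mul_zero] at h6
    exact one_ne_zero h6

end zed

end Cfsg.Agent.H312.EPU
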